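import Cfsg.Agent.H28.SmallOrders.L33.Values
import Cfsg.Agent.H28.SmallOrders.RationalColumn
import Cfsg.Agent.H38.ClassCoeff
import Cfsg.Agent.H40.RegularRestrict
import Cfsg.Agent.H43.IntCong
import Cfsg.Agent.H27.DefectZero

/-!
# Integrality and orthogonality bounds on the visible characters
-/

set_option autoImplicit false
set_option synthInstance.maxSize 1024

namespace Cfsg.Agent.H28.L33

open Finset
open scoped ComplexConjugate

variable {G : Type*} [Group G] [Fintype G] {z : G}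

/-- A rational number which is an algebraic integer multiple of `k` is an integral multiple. -/
theorem exists_int_of_average {k : ℕ} (hk : k ≠ 0) {N : ℚ} {x : ℂ} (hx : IsIntegral ℤ x)
    (h : x = (k : ℂ)⁻¹ * (N : ℂ)) : ∃ m : ℤ, N = k * m := by
  obtain ⟨m, hm⟩ := H43.exists_int_of_isIntegral (q := N / k)
    (by rw [show ((N / k : ℚ) : ℂ) = x by rw [h]; push_cast; ring]; exact hx)
  exact ⟨m, by rw [hm, mul_div_cancel₀ _ (Nat.cast_ne_zero.mpr hk)]⟩

/-- The average over `⟨y⟩`, `y` of order three, shifted by `s` commuting with `y`, for a real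
character taking at `s * y` and `s * y ^ 2` the same value. -/
theorem average_three (χ : Cfsg.IrrCharacter G) {y s : G} (hy : orderOf y = 3) (hsy : Commute s y) :
    IsIntegral ℤ (((3 : ℕ) : ℂ)⁻¹ * (χ.1 s + χ.1 (s * y) + χ.1 (s * y ^ 2))) := by
  classical
  obtain ⟨n, ρ, -, e⟩ := χ.2
  have h := H40.isIntegral_coset_average ρ (Subgroup.zpowers y) (s := s) (by
    rw [Subgroup.mem_centralizer_iff]
    intro x hx
    obtain ⟨i, rfl⟩ := Subgroup.mem_zpowers_iff.mp hx
    exact ((hsy.zpow_right i).symm).eq)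
  rw [Nat.card_zpowers, hy, ← Fintype.sum_equiv (finEquivZPowers (isOfFinOrder_of_finite y))
    (fun i => ρ.character (s * y ^ (i : ℕ))) _ (fun i => by simp [finEquivZPowers_apply]),
    Fin.sum_univ_eq_sum_range (fun i => ρ.character (s * y ^ i)), hy, Finset.sum_range_succ,
    Finset.sum_range_succ, Finset.sum_range_one, pow_zero, mul_one, pow_one, e] at h
  exact h

/-- The character value at an inverse. -/
theorem irr_inv (χ : Cfsg.IrrCharacter G) (g : G) : χ.1 g⁻¹ = conj (χ.1 g) := by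
  obtain ⟨n, ρ, -, e⟩ := χ.2
  rw [← e]
  exact H25.char_inv ρ g

theorem real_inv (χ : Cfsg.IrrCharacter G) (hR : ∀ g, (χ.1 g).im = 0) (g : G) :
    χ.1 g⁻¹ = χ.1 g := by
  rw [irr_inv, Complex.conj_eq_iff_im.mpr (hR g)]

theorem isConj_orderOf {u v : G} (h : IsConj u v) : orderOf u = orderOf v := by
  obtain ⟨g, rfl⟩ := isConj_iff.mp h
  exact (orderOf_injective (MulAut.conj g).toMonoidHom (MulAut.conj g).injective u).symm

variable [IsSimpleGroup G]

/-- The determinant of a representation of a non-abelian simple group is trivial. -/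
theorem det_eq_one (hG : ¬ IsMulCommutative G) {n : ℕ} (ρ : Representation ℂ G (Fin n → ℂ)) (u : G) :
    LinearMap.det (ρ u) = 1 := by
  let f : G →* ℂ := LinearMap.det.comp ρ
  let fu : G →* ℂˣ := f.toHomUnits
  have hk : fu.ker = ⊤ := by
    refine (IsSimpleGroup.eq_bot_or_eq_top_of_normal fu.ker inferInstance).resolve_left fun h => ?_
    exact hG ⟨⟨fun a b => (MonoidHom.ker_eq_bot_iff fu).mp h (by simp only [map_mul, mul_comm])⟩⟩
  have hm : fu u = 1 := MonoidHom.mem_ker.mp (hk ▸ Subgroup.mem_top u)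
  exact congrArg Units.val hm

/-- A real value at an element of order four. -/
theorem value_order_four (hG : ¬ IsMulCommutative G) {g : G} (hg : orderOf g = 4)
    (χ : Cfsg.IrrCharacter G) (hR : (χ.1 g).im = 0) (d : ℕ) (hd : χ.1 1 = (d : ℂ)) (s : ℤ)
    (hs : χ.1 (g * g) = (s : ℂ)) : ∃ A k : ℤ, χ.1 g = (A : ℂ) ∧ 2 * A = d + s - 8 * k := by
  classical
  obtain ⟨n, ρ, -, e⟩ := χ.2
  obtain ⟨b, μ, h1, h2, h3⟩ := H25.exists_eigenbasis ρ g
  have hsq : ρ.character (g * g) = ∑ i, μ i * μ i :=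
    H25.trace_eq_sum_of_eigenbasis (ρ (g * g)) b (fun i => μ i * μ i) fun i => by
      rw [map_mul, Module.End.mul_apply, h1, map_smul, h1, smul_smul]
  have hdet : ∏ i, μ i = 1 := by
    rw [← det_eq_one hG ρ g, ← LinearMap.det_toMatrix b, ← Matrix.det_diagonal]
    congr 1
    ext i j
    rw [LinearMap.toMatrix_apply, h1, map_smul, b.repr_self, Finsupp.smul_apply,
      Finsupp.single_apply, Matrix.diagonal_apply, smul_eq_mul]
    split_ifs <;> simp_all
  have hμ : ∀ i, μ i = 1 ∨ μ i = -1 ∨ μ i = Complex.I ∨ μ i = -Complex.I := by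
    intro i
    have h4 : μ i ^ 4 = 1 := hg ▸ h2 i
    have : (μ i - 1) * (μ i + 1) * ((μ i - Complex.I) * (μ i + Complex.I)) = 0 := by
      linear_combination h4 + (-(μ i ^ 2) + 1) * Complex.I_mul_I
    rcases mul_eq_zero.mp this with h | h <;> rcases mul_eq_zero.mp h with h | h
    · exact Or.inl (sub_eq_zero.mp h)
    · exact Or.inr (Or.inl (eq_neg_of_add_eq_zero_left h))
    · exact Or.inr (Or.inr (Or.inl (sub_eq_zero.mp h)))
    · exact Or.inr (Or.inr (Or.inr (eq_neg_of_add_eq_zero_left h)))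
  let δ : ℂ → Fin (Module.finrank ℂ (Fin n → ℂ)) → ℕ := fun ω i => if μ i = ω then 1 else 0
  have hI1 : Complex.I ≠ 1 := fun h => by simpa using congrArg Complex.im h
  have hI2 : Complex.I ≠ -1 := fun h => by simpa using congrArg Complex.im h
  have hI3 : Complex.I ≠ -Complex.I := fun h => by
    have := congrArg Complex.im h; norm_num at this
  have hI4 : -Complex.I ≠ 1 := fun h => by simpa using congrArg Complex.im h
  have hI5 : -Complex.I ≠ -1 := fun h => hI1 (neg_injective h)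
  have hm1 : (-1 : ℂ) ≠ 1 := by norm_num
  have key : ∀ i, μ i = (δ 1 i : ℂ) - δ (-1) i + ((δ Complex.I i : ℂ) - δ (-Complex.I) i) * Complex.I ∧
      μ i * μ i = (δ 1 i : ℂ) + δ (-1) i - δ Complex.I i - δ (-Complex.I) i ∧
      1 = (δ 1 i : ℂ) + δ (-1) i + δ Complex.I i + δ (-Complex.I) i ∧
      μ i = (-1 : ℂ) ^ δ (-1) i * (Complex.I ^ δ Complex.I i * (-Complex.I) ^ δ (-Complex.I) i) := by
    intro i
    rcases hμ i with h | h | h | h <;>
      simp [δ, h, hI1, hI2, hI3, hI4, hI5, hm1, hI1.symm, hI2.symm, hI3.symm, hI4.symm, hI5.symm,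
        hm1.symm]
  set n0 := ∑ i, δ 1 i with hn0
  set n2 := ∑ i, δ (-1) i with hn2
  set n1 := ∑ i, δ Complex.I i with hn1
  set n3 := ∑ i, δ (-Complex.I) i with hn3
  have hv : χ.1 g = (n0 : ℂ) - n2 + ((n1 : ℂ) - n3) * Complex.I := by
    rw [← e, h3, Finset.sum_congr rfl fun i _ => (key i).1]
    simp only [Finset.sum_add_distrib, Finset.sum_sub_distrib, ← Finset.sum_mul, hn0, hn1, hn2, hn3,
      Nat.cast_sum]
  have h13 : n1 = n3 := by
    rw [hv] at hR
    simp at hR
    exact_mod_cast sub_eq_zero.mp hR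
  have hdn : (d : ℂ) = (n0 : ℂ) + n2 + n1 + n3 := by
    have hone : χ.1 1 = ∑ _i : Fin (Module.finrank ℂ (Fin n → ℂ)), (1 : ℂ) := by
      rw [← e, ρ.char_one]; simp
    rw [← hd, hone, Finset.sum_congr rfl fun i _ => (key i).2.2.1]
    simp only [Finset.sum_add_distrib, hn0, hn1, hn2, hn3, Nat.cast_sum]
  have hs' : (s : ℂ) = (n0 : ℂ) + n2 - n1 - n3 := by
    rw [← hs, ← e, hsq, Finset.sum_congr rfl fun i _ => (key i).2.1]
    simp only [Finset.sum_add_distrib, Finset.sum_sub_distrib, hn0, hn1, hn2, hn3, Nat.cast_sum]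
  have hev : Even n2 := by
    rw [Finset.prod_congr rfl fun i _ => (key i).2.2.2, Finset.prod_mul_distrib,
      Finset.prod_mul_distrib, Finset.prod_pow_eq_pow_sum, Finset.prod_pow_eq_pow_sum,
      Finset.prod_pow_eq_pow_sum, ← hn2, ← hn1, ← hn3, ← h13, ← mul_pow,
      mul_neg, Complex.I_mul_I, neg_neg, one_pow, mul_one] at hdet
    exact (neg_one_pow_eq_one_iff_even (by norm_num : (-1 : ℂ) ≠ 1)).mp hdet
  obtain ⟨k, hk⟩ := hev
  refine ⟨(n0 : ℤ) - n2, k, ?_, ?_⟩
  · rw [hv, h13]; push_cast; ring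
  · have e1 : (d : ℤ) = (n0 : ℤ) + n2 + n1 + n3 := by exact_mod_cast hdn
    have e2 : s = (n0 : ℤ) + n2 - n1 - n3 := by exact_mod_cast hs'
    omega

namespace Chars

variable (C : Chars z)
include C

omit [IsSimpleGroup G] in
theorem card_centralizer_z : Nat.card (Subgroup.centralizer ({z} : Set G)) = 13 := by
  rw [C.hC, Nat.card_zpowers, C.hz]

omit [IsSimpleGroup G] in
/-- `a` vanishes at elements of order divisible by three. -/
theorem a_eq_zero (hcard : Nat.card G = 5616) {x : G} (hx : 3 ∣ orderOf x) : C.a.1 x = 0 :=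
  H27.char_eq_zero_of_defect_zero C.a (p := 3) (n := 3) Nat.prime_three
    (by rw [hcard]; norm_num) (by rw [hcard]; norm_num) C.ha1 (by norm_num) x hx

omit [IsSimpleGroup G] in
/-- Orthogonality bound for two columns. -/
theorem pair_bound {u v : G} (hu : orderOf u ≠ 1) (hu' : orderOf u ≠ 13) (hv : orderOf v ≠ 1)
    (hv' : orderOf v ≠ 13) (hnc : ¬ IsConj u v) (hnc' : ¬ IsConj v u) {A B A' B' : ℤ}
    (ha : C.a.1 u = (A : ℂ)) (hb : C.b.1 u = (B : ℂ)) (ha' : C.a.1 v = (A' : ℂ))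
    (hb' : C.b.1 v = (B' : ℂ)) (μ ν : ℤ) :
    (μ + ν) ^ 2 + (μ * A' + ν * A) ^ 2 + (μ * B' + ν * B) ^ 2 +
        4 * (μ * (1 + A' - B') + ν * (1 + A - B)) ^ 2 ≤
      μ ^ 2 * (Nat.card (Subgroup.centralizer ({v} : Set G)) : ℤ) +
        ν ^ 2 * (Nat.card (Subgroup.centralizer ({u} : Set G)) : ℤ) := by
  classical
  set f : Cfsg.IrrCharacter G → ℂ := fun χ => (μ : ℂ) * χ.1 v + (ν : ℂ) * χ.1 u with hf
  have hsum : ∑ χ, f χ * conj (f χ) =
      ((μ ^ 2 * (Nat.card (Subgroup.centralizer ({v} : Set G)) : ℤ) +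
        ν ^ 2 * (Nat.card (Subgroup.centralizer ({u} : Set G)) : ℤ) : ℤ) : ℂ) := by
    have h1 := H26.column_orthogonality v v
    rw [H26.classIndicator, if_pos (IsConj.refl v), mul_one] at h1
    have h2 := H26.column_orthogonality u u
    rw [H26.classIndicator, if_pos (IsConj.refl u), mul_one] at h2
    have h3 := H26.column_orthogonality v u
    rw [H26.classIndicator, if_neg (by first | exact hnc | exact hnc'), mul_zero] at h3
    have h4 := H26.column_orthogonality u v
    rw [H26.classIndicator, if_neg (by first | exact hnc | exact hnc'), mul_zero] at h4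
    have e : ∀ χ : Cfsg.IrrCharacter G, f χ * conj (f χ) =
        (μ : ℂ) ^ 2 * (χ.1 v * conj (χ.1 v)) + (ν : ℂ) ^ 2 * (χ.1 u * conj (χ.1 u)) +
          (μ : ℂ) * ν * (χ.1 v * conj (χ.1 u)) + (μ : ℂ) * ν * (χ.1 u * conj (χ.1 v)) := by
      intro χ
      simp only [hf, map_add, map_mul, map_intCast]
      ring
    simp only [e, Finset.sum_add_distrib, ← Finset.mul_sum, h1, h2, h3, h4]
    push_cast
    ring
  have hre := congrArg Complex.re hsum
  rw [Complex.re_sum, Complex.intCast_re] at hre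
  have hnn : ∀ χ : Cfsg.IrrCharacter G, 0 ≤ (f χ * conj (f χ)).re := fun χ => by
    rw [Complex.mul_conj, Complex.ofReal_re]; exact Complex.normSq_nonneg _
  have hint : ∀ (χ : Cfsg.IrrCharacter G) (m : ℤ), f χ = (m : ℂ) →
      (f χ * conj (f χ)).re = (m : ℝ) ^ 2 := by
    intro χ m h
    rw [h, Complex.mul_conj, Complex.normSq_intCast, Complex.ofReal_re]
    ring
  have hle := Finset.sum_le_univ_sum_of_nonneg (s := insert (H26.oneIrr G) (insert C.a (insert C.b C.K)))
    hnn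
  rw [Finset.sum_insert (by simp [C.hao.symm, C.hbo.symm, C.hoK]),
    Finset.sum_insert (by simp [C.hab, C.haK]), Finset.sum_insert C.hbK,
    hint _ (μ + ν) (by simp [hf, H26.oneIrr_val]),
    hint C.a (μ * A' + ν * A) (by simp only [hf, ha, ha']; push_cast; ring),
    hint C.b (μ * B' + ν * B) (by simp only [hf, hb, hb']; push_cast; ring),
    Finset.sum_congr rfl (fun k hk => hint k (μ * (1 + A' - B') + ν * (1 + A - B)) (by
      simp only [hf, C.hθ u hu hu' k hk, C.hθ v hv hv' k hk, ha, hb, ha', hb']; push_cast; ring)),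
    Finset.sum_const, C.hK, nsmul_eq_mul] at hle
  rw [hre] at hle
  push_cast at hle
  have : (((μ + ν) ^ 2 + (μ * A' + ν * A) ^ 2 + (μ * B' + ν * B) ^ 2 +
      4 * (μ * (1 + A' - B') + ν * (1 + A - B)) ^ 2 : ℤ) : ℝ) ≤
      ((μ ^ 2 * (Nat.card (Subgroup.centralizer ({v} : Set G)) : ℤ) +
        ν ^ 2 * (Nat.card (Subgroup.centralizer ({u} : Set G)) : ℤ) : ℤ) : ℝ) := by
    push_cast; linarith
  exact_mod_cast this

omit [IsSimpleGroup G] in
/-- Orthogonality bound for one column. -/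
theorem single_bound {u : G} (hu : orderOf u ≠ 1) (hu' : orderOf u ≠ 13) {A B : ℤ}
    (ha : C.a.1 u = (A : ℂ)) (hb : C.b.1 u = (B : ℂ)) :
    1 + A ^ 2 + B ^ 2 + 4 * (1 + A - B) ^ 2 ≤
      (Nat.card (Subgroup.centralizer ({u} : Set G)) : ℤ) := by
  classical
  have h1 := H26.column_orthogonality u u
  rw [H26.classIndicator, if_pos (IsConj.refl u), mul_one] at h1
  have hre := congrArg Complex.re h1
  rw [Complex.re_sum, Complex.natCast_re] at hre
  have hnn : ∀ χ : Cfsg.IrrCharacter G, 0 ≤ (χ.1 u * conj (χ.1 u)).re := fun χ => by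
    rw [Complex.mul_conj, Complex.ofReal_re]; exact Complex.normSq_nonneg _
  have hint : ∀ (χ : Cfsg.IrrCharacter G) (m : ℤ), χ.1 u = (m : ℂ) →
      (χ.1 u * conj (χ.1 u)).re = (m : ℝ) ^ 2 := by
    intro χ m h
    rw [h, Complex.mul_conj, Complex.normSq_intCast, Complex.ofReal_re]
    ring
  have hle := Finset.sum_le_univ_sum_of_nonneg (s := insert (H26.oneIrr G) (insert C.a (insert C.b C.K)))
    hnn
  rw [Finset.sum_insert (by simp [C.hao.symm, C.hbo.symm, C.hoK]),
    Finset.sum_insert (by simp [C.hab, C.haK]), Finset.sum_insert C.hbK,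
    hint _ 1 (by simp [H26.oneIrr_val]), hint C.a A ha, hint C.b B hb,
    Finset.sum_congr rfl (fun k hk => hint k (1 + A - B) (by
      rw [C.hθ u hu hu' k hk, ha, hb]; push_cast; ring)),
    Finset.sum_const, C.hK, nsmul_eq_mul] at hle
  rw [hre] at hle
  push_cast at hle
  have : ((1 + A ^ 2 + B ^ 2 + 4 * (1 + A - B) ^ 2 : ℤ) : ℝ) ≤
      (((Nat.card (Subgroup.centralizer ({u} : Set G)) : ℕ) : ℤ) : ℝ) := by
    push_cast; linarith
  exact_mod_cast this

omit [IsSimpleGroup G] in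
/-- No element of order thirteen is a product of two conjugates of an involution. -/
theorem no_pairs {u : G} (hu : orderOf u = 2) :
    Nat.card {q : G × G // IsConj u q.1 ∧ IsConj u q.2 ∧ q.1 * q.2 = z} = 0 := by
  rw [Nat.card_eq_zero]
  refine Or.inl ⟨fun ⟨⟨q, r⟩, hq, hr, he⟩ => ?_⟩
  simp only at hq hr he
  have hq2 : orderOf q = 2 := (isConj_orderOf hq).symm.trans hu
  have hr2 : orderOf r = 2 := (isConj_orderOf hr).symm.trans hu
  have eq1 : q⁻¹ = q := inv_eq_of_mul_eq_one_right (by rw [← sq, ← hq2, pow_orderOf_eq_one])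
  have er1 : r⁻¹ = r := inv_eq_of_mul_eq_one_right (by rw [← sq, ← hr2, pow_orderOf_eq_one])
  have hinv : q * z * q⁻¹ = z⁻¹ := by
    rw [← he, mul_inv_rev, er1, eq1, ← mul_assoc,
      show q * q = 1 by rw [← sq, ← hq2, pow_orderOf_eq_one], one_mul]
  have hmem : q ∈ Subgroup.normalizer (Subgroup.zpowers z : Set G) := by
    refine Subgroup.mem_normalizer_iff.mpr fun y => ⟨?_, ?_⟩
    · intro hy
      obtain ⟨i, rfl⟩ := Subgroup.mem_zpowers_iff.mp hy
      rw [← conj_zpow, hinv, inv_zpow]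
      exact inv_mem (Subgroup.zpow_mem _ (Subgroup.mem_zpowers z) i)
    · intro hy
      obtain ⟨i, hi⟩ := Subgroup.mem_zpowers_iff.mp hy
      have : y = q * z ^ i * q⁻¹ := by
        rw [hi, eq1]
        simp only [mul_assoc]
        rw [show q * q = 1 by rw [← sq, ← hq2, pow_orderOf_eq_one], mul_one, ← mul_assoc,
          show q * q = 1 by rw [← sq, ← hq2, pow_orderOf_eq_one], one_mul]
      rw [this, ← conj_zpow, hinv, inv_zpow]
      exact inv_mem (Subgroup.zpow_mem _ (Subgroup.mem_zpowers z) i)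
  have hd := orderOf_dvd_natCard (⟨q, hmem⟩ : Subgroup.normalizer (Subgroup.zpowers z : Set G))
  rw [Subgroup.orderOf_mk, hq2, C.hN] at hd
  omega

omit [IsSimpleGroup G] in
/-- The class equation of an involution against `z`. -/
theorem involution_equation {u : G} (hu : orderOf u = 2) {A B : ℤ}
    (ha : C.a.1 u = (A : ℂ)) (hb : C.b.1 u = (B : ℂ)) :
    432 + 16 * A ^ 2 - 36 * B ^ 2 - 27 * (1 + A - B) ^ 2 = 0 := by
  classical
  have hform := H38.class_coeff u u z
  rw [C.no_pairs hu, Nat.cast_zero] at hform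
  have hne : (Nat.card {x : G // IsConj u x} : ℂ) * (Nat.card {x : G // IsConj u x} : ℂ) /
      (Nat.card G : ℂ) ≠ 0 := by
    have : Nonempty {x : G // IsConj u x} := ⟨⟨u, IsConj.refl u⟩⟩
    exact div_ne_zero (mul_ne_zero (Nat.cast_ne_zero.mpr Nat.card_pos.ne')
      (Nat.cast_ne_zero.mpr Nat.card_pos.ne')) (Nat.cast_ne_zero.mpr Nat.card_pos.ne')
  have h0 := (mul_eq_zero.mp hform.symm).resolve_left hne
  rw [← Finset.sum_subset (Finset.subset_univ
    (insert (H26.oneIrr G) (insert C.a (insert C.b C.K)))) (fun χ _ h => by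
      simp only [mem_insert, not_or] at h
      rw [C.hrest χ h.1 h.2.1 h.2.2.1 h.2.2.2, map_zero, mul_zero, zero_div]),
    Finset.sum_insert (by simp [C.hao.symm, C.hbo.symm, C.hoK]),
    Finset.sum_insert (by simp [C.hab, C.haK]), Finset.sum_insert C.hbK,
    Finset.sum_congr rfl (fun k hk => by
      rw [C.hθ u (by omega) (by omega) k hk, ha, hb, C.hK1 k hk, mul_div_right_comm] :
        ∀ k ∈ C.K, k.1 u * k.1 u * conj (k.1 z) / k.1 1 =
          (1 + (A : ℂ) - (B : ℂ)) * (1 + (A : ℂ) - (B : ℂ)) / ((16 : ℕ) : ℂ) * conj (k.1 z)),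
    ← Finset.mul_sum, ← map_sum, C.hKz, C.ha1, C.hb1, C.haz, C.hbz, ha, hb] at h0
  simp only [H26.oneIrr_val, map_neg, map_one] at h0
  have : ((432 + 16 * A ^ 2 - 36 * B ^ 2 - 27 * (1 + A - B) ^ 2 : ℤ) : ℂ) = ((0 : ℤ) : ℂ) := by
    push_cast at h0 ⊢
    linear_combination 432 * h0
  exact_mod_cast this

end Chars

end Cfsg.Agent.H28.L33
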