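import Cfsg.Agent.H28.SmallOrders.L33.ThreeElements
import Cfsg.Agent.H25.Burnside
import Cfsg.Agent.H91.OddOnTwo.AutCard
import Cfsg.Agent.H19.Cores
import Cfsg.Agent.H60.SylowRankOneInter
import Cfsg.Agent.H28.ZStar

/-!
# The centralizer of an involution in a simple group of order 5616
-/

set_option autoImplicit false
set_option synthInstance.maxSize 1024

namespace Cfsg.Agent.H28.L33

open Subgroup

variable {G : Type*} [Group G]

theorem mem_map_conj {R : Subgroup G} {m x : G} :
    x ∈ R.map (MulAut.conj m).toMonoidHom ↔ m⁻¹ * x * m ∈ R := by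
  constructor
  · rintro ⟨r, hr, rfl⟩
    show m⁻¹ * (m * r * m⁻¹) * m ∈ R
    rwa [show m⁻¹ * (m * r * m⁻¹) * m = r by group]
  · intro h
    exact ⟨_, h, show m * (m⁻¹ * x * m) * m⁻¹ = x by group⟩

theorem commute_of_sq {x w : G} (hx : x * x = 1) (hw : w * w = 1) (h : (x * w) * (x * w) = 1) :
    x * w = w * x := by
  have h' := inv_eq_of_mul_eq_one_right h
  rw [mul_inv_rev, inv_eq_of_mul_eq_one_right hx, inv_eq_of_mul_eq_one_right hw] at h'
  exact h'.symm

variable [Fintype G] [IsSimpleGroup G] {z : G} {C : Chars z}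

/-- Sylow 2-subgroups have order sixteen. -/
theorem Facts.card_sylow (F : Facts C) (T : Sylow 2 G) : Nat.card (T : Subgroup G) = 16 := by
  have : Fact (Nat.Prime 2) := ⟨Nat.prime_two⟩
  simpa using H30.card_sylow_subgroup (a := 4) (m := 351) T (by rw [F.hcard]; norm_num) (by norm_num)

theorem Facts.exists_sylow_eq (F : Facts C) (T : Subgroup G) (hT : Nat.card T = 16) :
    ∃ P : Sylow 2 G, (P : Subgroup G) = T := by
  have : Fact (Nat.Prime 2) := ⟨Nat.prime_two⟩
  obtain ⟨P, hP⟩ := (IsPGroup.of_card (n := 4) (by rw [hT]; norm_num) : IsPGroup 2 T).exists_le_sylow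
  exact ⟨P, (eq_of_le_of_card_ge hP (by rw [hT, F.card_sylow])).symm⟩

/-- The centralizer in `C(t)` of an element of order three has order six. -/
theorem Facts.card_centralizer_three (F : Facts C) {t y : G} (ht : orderOf t = 2)
    (hy : orderOf y = 3) (hyH : y ∈ centralizer ({t} : Set G)) :
    Nat.card ↥(centralizer ({t} : Set G) ⊓ centralizer ({y} : Set G)) = 6 := by
  have : Fact (Nat.Prime 2) := ⟨Nat.prime_two⟩
  have : Fact (Nat.Prime 3) := ⟨Nat.prime_three⟩
  set D := centralizer ({t} : Set G) ⊓ centralizer ({y} : Set G) with hD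
  have h48 : Nat.card D ∣ 48 := by
    rw [← F.card_cent t ht]; exact card_dvd_of_le inf_le_left
  have h3 : 3 ∣ Nat.card D := by
    rw [← hy, ← Nat.card_zpowers]
    exact card_dvd_of_le (zpowers_le.mpr ⟨hyH, mem_centralizer_singleton_iff.mpr rfl⟩)
  have h2 : 2 ∣ Nat.card D := by
    rw [← ht, ← Nat.card_zpowers]
    exact card_dvd_of_le (zpowers_le.mpr ⟨mem_centralizer_singleton_iff.mpr rfl,
      mem_centralizer_singleton_iff.mpr ((mem_centralizer_singleton_iff.mp hyH).symm)⟩)
  have h4 : ¬ 4 ∣ Nat.card D := by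
    intro h
    obtain ⟨W, hW⟩ := Sylow.exists_subgroup_card_pow_prime 2 (n := 2) (G := D) (by simpa using h)
    set W' := W.map D.subtype
    have hW' : Nat.card W' = 4 := by rw [card_subtype, hW]; norm_num
    have hW'D : W' ≤ D := map_subtype_le W
    by_cases hsq : ∀ v ∈ W', v * v = 1
    · exact F.no_four W' hW' hsq hy (hW'D.trans inf_le_right)
    · push Not at hsq
      obtain ⟨g, hg, hg2⟩ := hsq
      have hd := orderOf_dvd_natCard (⟨g, hg⟩ : W')
      rw [orderOf_mk, hW'] at hd
      have hg4 : orderOf g = 4 := by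
        rcases (Nat.dvd_prime_pow Nat.prime_two).mp (show orderOf g ∣ 2 ^ 2 by simpa using hd) with
          ⟨j, hj, hj'⟩
        interval_cases j
        · exact absurd (by rw [← sq, ← orderOf_dvd_iff_pow_eq_one, hj']; norm_num) hg2
        · exact absurd (by rw [← sq, ← orderOf_dvd_iff_pow_eq_one, hj']; norm_num) hg2
        · rw [hj']; norm_num
      exact F.no_twelve hg4 hy (mem_centralizer_singleton_iff.mp (hW'D hg).2)
  have hall : ∀ d ∈ Nat.divisors 48, 3 ∣ d → 2 ∣ d → ¬ 4 ∣ d → d = 6 := by decide +kernel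
  exact hall _ (Nat.mem_divisors.mpr ⟨h48, by norm_num⟩) h3 h2 h4

/-- No element of order three generates a normal subgroup of `C(t)`. -/
theorem Facts.not_normal_three (F : Facts C) {t y : G} (ht : orderOf t = 2) (hy : orderOf y = 3)
    (hyH : y ∈ centralizer ({t} : Set G)) :
    ¬ centralizer ({t} : Set G) ≤ normalizer (zpowers y : Set G) := by
  intro hle
  set H := centralizer ({t} : Set G)
  let φ : H →* MulAut (zpowers y) := (zpowers y).normalizerMonoidHom.comp (inclusion hle)
  have hker : φ.ker.map H.subtype ≤ H ⊓ centralizer ({y} : Set G) := by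
    rintro _ ⟨h, hh, rfl⟩
    refine ⟨h.2, mem_centralizer_singleton_iff.mpr ?_⟩
    have h1 := congrArg Subtype.val
      (MulEquiv.ext_iff.mp (MonoidHom.mem_ker.mp hh) ⟨y, mem_zpowers y⟩)
    have h2 : (h : G) * y * (h : G)⁻¹ = y := h1
    exact mul_inv_eq_iff_eq_mul.mp h2
  have hk := card_le_of_le hker
  rw [card_subtype, F.card_centralizer_three ht hy hyH] at hk
  have h1 := φ.ker.index_mul_card
  rw [index_ker, F.card_cent t ht] at h1
  have hr : Nat.card φ.range ≤ 2 := by
    have hcy : Nat.card (zpowers y) = 3 := by rw [Nat.card_zpowers, hy]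
    have : IsCyclic (zpowers y) := inferInstance
    refine (Nat.le_of_dvd Nat.card_pos φ.range.card_subgroup_dvd_card).trans ?_
    rw [Nat.card_congr (IsCyclic.mulAutMulEquiv (zpowers y)).toEquiv, hcy, Nat.card_eq_fintype_card,
      ZMod.card_units_eq_totient]
    decide
  have := Nat.mul_le_mul hr hk
  omega

omit [IsSimpleGroup G] in
/-- Fixed points of an element of order three on a 2-subgroup it normalises. -/
theorem fixed_mod_three {R : Subgroup G} {y : G} (hy : orderOf y = 3)
    (hyR : y ∈ normalizer (R : Set G)) :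
    Nat.card R % 3 = Nat.card ↥(R ⊓ centralizer ({y} : Set G)) % 3 := by
  have : Fact (Nat.Prime 3) := ⟨Nat.prime_three⟩
  have hyle : zpowers y ≤ normalizer (R : Set G) := zpowers_le.mpr hyR
  let ψ : zpowers y →* MulAut R := R.normalizerMonoidHom.comp (inclusion hyle)
  let inst : MulAction (zpowers y) R := MulAction.compHom R ψ
  have hp : IsPGroup 3 (zpowers y) :=
    IsPGroup.of_card (n := 1) (by rw [Nat.card_zpowers, hy, pow_one])
  have h := hp.card_modEq_card_fixedPoints R
  rw [Nat.ModEq] at h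
  rw [h]
  congr 1
  refine Nat.card_congr (Equiv.ofBijective
    (fun r => ⟨(r.1 : G), r.1.2, mem_centralizer_singleton_iff.mpr ?_⟩) ⟨?_, ?_⟩)
  · have h1 := congrArg Subtype.val (r.2 ⟨y, mem_zpowers y⟩)
    have h2 : y * (r.1 : G) * y⁻¹ = (r.1 : G) := h1
    exact (mul_inv_eq_iff_eq_mul.mp h2).symm
  · intro r r' e
    exact Subtype.ext (Subtype.ext (congrArg (fun x => (x.1 : G)) e))
  · intro x
    refine ⟨⟨⟨x.1, x.2.1⟩, fun g => Subtype.ext ?_⟩, rfl⟩
    obtain ⟨g, hg⟩ := g
    obtain ⟨i, rfl⟩ := mem_zpowers_iff.mp hg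
    show y ^ i * (x.1 : G) * (y ^ i)⁻¹ = x.1
    rw [mul_inv_eq_iff_eq_mul]
    exact ((show Commute (x.1 : G) y from mem_centralizer_singleton_iff.mp x.2.2).zpow_right i).symm.eq

/-- No 2-subgroup of order sixteen is normal in `C(t)`. -/
theorem Facts.not_normal_sixteen (F : Facts C) {t y : G} (ht : orderOf t = 2) (hy : orderOf y = 3)
    (hyH : y ∈ centralizer ({t} : Set G)) (T : Subgroup G) (hT : T ≤ centralizer ({t} : Set G))
    (h16 : Nat.card T = 16) : ¬ centralizer ({t} : Set G) ≤ normalizer (T : Set G) := by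
  intro hle
  have : Fact (Nat.Prime 2) := ⟨Nat.prime_two⟩
  have h := fixed_mod_three hy (hle hyH)
  set D := T ⊓ centralizer ({y} : Set G) with hD
  have hd1 : Nat.card D ∣ 6 := by
    rw [← F.card_centralizer_three ht hy hyH]; exact card_dvd_of_le (inf_le_inf_right _ hT)
  have hd2 : Nat.card D ∣ 16 := h16 ▸ card_dvd_of_le inf_le_left
  have htT : t ∈ T := by
    obtain ⟨P, rfl⟩ := F.exists_sylow_eq T h16
    have hsub : IsPGroup 2 (zpowers t) :=
      IsPGroup.of_card (n := 1) (by rw [Nat.card_zpowers, ht, pow_one])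
    have htN : zpowers t ≤ normalizer ((P : Subgroup G) : Set G) :=
      zpowers_le.mpr (hle (mem_centralizer_singleton_iff.mpr rfl))
    have hsup : IsPGroup 2 (zpowers t ⊔ (P : Subgroup G) : Subgroup G) :=
      hsub.to_sup_of_normal_right' P.2 htN
    rw [← P.3 hsup le_sup_right]
    exact mem_sup_left (mem_zpowers t)
  have h2 : 2 ∣ Nat.card D := by
    rw [← ht, ← Nat.card_zpowers]
    exact card_dvd_of_le (zpowers_le.mpr ⟨htT, mem_centralizer_singleton_iff.mpr
      ((mem_centralizer_singleton_iff.mp hyH).symm)⟩)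
  have hD2 : Nat.card D = 2 := Nat.dvd_antisymm
    ((Nat.dvd_gcd hd1 hd2).trans (show Nat.gcd 6 16 = 2 by norm_num).dvd) h2
  rw [h16, hD2] at h
  norm_num at h

/-- Two distinct subgroups of order sixteen of `C(t)` meet in a normal subgroup of order eight. -/
theorem Facts.inter_normal (F : Facts C) {t : G} (ht : orderOf t = 2) (S S' : Subgroup G)
    (hS : S ≤ centralizer ({t} : Set G)) (hS' : S' ≤ centralizer ({t} : Set G))
    (h16 : Nat.card S = 16) (h16' : Nat.card S' = 16) (hne : S ≠ S') :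
    Nat.card ↥(S ⊓ S') = 8 ∧ centralizer ({t} : Set G) ≤ normalizer ((S ⊓ S' : Subgroup G) : Set G) := by
  set H := centralizer ({t} : Set G) with hH
  set R := S ⊓ S' with hR
  have hd : Nat.card R ∣ 16 := h16 ▸ card_dvd_of_le inf_le_left
  have hlt : Nat.card R ≠ 16 := fun h => hne (le_antisymm
    (inf_eq_left.mp (eq_of_le_of_card_ge inf_le_left (by rw [h, h16])))
    (inf_eq_right.mp (eq_of_le_of_card_ge inf_le_right (by rw [h, h16']))))
  have hprod : 16 * 16 ≤ 48 * Nat.card R := by
    have h1 : (S'.subgroupOf H ⊓ S.subgroupOf H).index ≤ (S'.subgroupOf H).index * (S.subgroupOf H).index :=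
      index_inf_le
    have hi : ∀ K : Subgroup G, K ≤ H → (K.subgroupOf H).index * Nat.card K = 48 := fun K hK => by
      rw [← Nat.card_congr (subgroupOfEquivOfLe hK).toEquiv, index_mul_card, hH, F.card_cent t ht]
    have e1 := hi S hS
    have e2 := hi S' hS'
    rw [h16] at e1
    rw [h16'] at e2
    rw [show S'.subgroupOf H ⊓ S.subgroupOf H = (S' ⊓ S).subgroupOf H from
      (comap_inf _ _ _).symm] at h1
    have e3 := hi (S' ⊓ S) (inf_le_left.trans hS')
    have e4 : (S.subgroupOf H).index = 3 := by omega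
    have e5 : (S'.subgroupOf H).index = 3 := by omega
    rw [e4, e5] at h1
    rw [inf_comm] at e3 h1
    rw [← hR] at e3 h1
    nlinarith
  have hR8 : Nat.card R = 8 := by
    have hall : ∀ d ∈ Nat.divisors 16, d ≠ 16 → 16 * 16 ≤ 48 * d → d = 8 := by decide +kernel
    exact hall _ (Nat.mem_divisors.mpr ⟨hd, by norm_num⟩) hlt hprod
  refine ⟨hR8, ?_⟩
  have hnorm : ∀ K : Subgroup G, R ≤ K → Nat.card K = 16 → K ≤ normalizer (R : Set G) := by
    intro K hK hK16
    refine (normal_subgroupOf_iff_le_normalizer hK).mp (normal_of_index_eq_two ?_)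
    have := (R.subgroupOf K).index_mul_card
    rw [Nat.card_congr (subgroupOfEquivOfLe hK).toEquiv, hR8, hK16] at this
    omega
  have hsup : S ⊔ S' ≤ normalizer (R : Set G) :=
    sup_le (hnorm S inf_le_left h16) (hnorm S' inf_le_right h16')
  refine le_trans (le_of_eq ?_) hsup
  symm
  refine eq_of_le_of_card_ge (sup_le hS hS') ?_
  have h16d : 16 ∣ Nat.card ↥(S ⊔ S') := h16 ▸ card_dvd_of_le le_sup_left
  have h48d : Nat.card ↥(S ⊔ S') ∣ 48 := by
    rw [← F.card_cent t ht]; exact card_dvd_of_le (sup_le hS hS')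
  have hne16 : Nat.card ↥(S ⊔ S') ≠ 16 := fun h => hne
    ((eq_of_le_of_card_ge le_sup_left (by rw [h, h16])).trans
      (eq_of_le_of_card_ge le_sup_right (by rw [h, h16'])).symm)
  have hall : ∀ d ∈ Nat.divisors 48, 16 ∣ d → d ≠ 16 → d = 48 := by decide +kernel
  rw [hall _ (Nat.mem_divisors.mpr ⟨h48d, by norm_num⟩) h16d hne16, hH, F.card_cent t ht]

/-- No elementary abelian normal subgroup of order eight in `C(t)`. -/
theorem Facts.no_eight (F : Facts C) {t y : G} (ht : orderOf t = 2) (hy : orderOf y = 3)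
    (hyH : y ∈ centralizer ({t} : Set G)) (R : Subgroup G) (hR : R ≤ centralizer ({t} : Set G))
    (htR : t ∈ R) (hR8 : Nat.card R = 8) (hR2 : ∀ r ∈ R, r * r = 1)
    (hRn : centralizer ({t} : Set G) ≤ normalizer (R : Set G)) : False := by
  classical
  have : Fact (Nat.Prime 2) := ⟨Nat.prime_two⟩
  have : Fact (Nat.Prime 3) := ⟨Nat.prime_three⟩
  set H := centralizer ({t} : Set G) with hH
  have hRab : ∀ a ∈ R, ∀ b ∈ R, a * b = b * a := fun a ha b hb =>
    commute_of_sq (hR2 a ha) (hR2 b hb) (hR2 _ (mul_mem ha hb))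
  set CR := centralizer (R : Set G) with hCR
  have hCRH : CR ≤ H := fun x hx =>
    mem_centralizer_singleton_iff.mpr (mem_centralizer_iff.mp hx t htR).symm
  have hRCR : R ≤ CR := fun a ha => mem_centralizer_iff.mpr fun b hb => hRab b hb a ha
  -- no element of order three centralises `R`
  have h3CR : ¬ 3 ∣ Nat.card CR := by
    intro h
    obtain ⟨w, hw⟩ := exists_prime_orderOf_dvd_card' (G := CR) 3 h
    rw [← orderOf_coe] at hw
    have h6 := F.card_centralizer_three ht hw (hCRH w.2)
    have hle : R ≤ centralizer ({t} : Set G) ⊓ centralizer ({(w : G)} : Set G) := fun a ha =>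
      ⟨hR ha, mem_centralizer_singleton_iff.mpr (mem_centralizer_iff.mp w.2 a ha)⟩
    have := card_dvd_of_le hle
    rw [h6, hR8] at this
    norm_num at this
  have hCR48 : Nat.card CR ∣ 48 := F.card_cent t ht ▸ card_dvd_of_le hCRH
  have hCR8 : 8 ∣ Nat.card CR := hR8 ▸ card_dvd_of_le hRCR
  have hHCR : H ≤ normalizer (CR : Set G) := by
    intro h hh
    rw [mem_normalizer_iff]
    intro x
    have key : ∀ g ∈ H, ∀ w ∈ CR, g * w * g⁻¹ ∈ CR := by
      intro g hg w hw
      refine mem_centralizer_iff.mpr fun a ha => ?_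
      have ha' : g⁻¹ * a * g ∈ R := (mem_normalizer_iff''.mp (hRn hg) a).mp ha
      have := mem_centralizer_iff.mp hw _ ha'
      calc a * (g * w * g⁻¹) = g * ((g⁻¹ * a * g) * w) * g⁻¹ := by group
        _ = g * (w * (g⁻¹ * a * g)) * g⁻¹ := by rw [this]
        _ = g * w * g⁻¹ * a := by group
    refine ⟨key h hh x, fun hx => ?_⟩
    have := key h⁻¹ (inv_mem hh) _ hx
    rwa [show h⁻¹ * (h * x * h⁻¹) * h⁻¹⁻¹ = x by group] at this
  have hCReq : CR = R := by
    have hall : ∀ d ∈ Nat.divisors 48, 8 ∣ d → ¬ 3 ∣ d → d = 8 ∨ d = 16 := by decide +kernel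
    rcases hall _ (Nat.mem_divisors.mpr ⟨hCR48, by norm_num⟩) hCR8 h3CR with h | h
    · exact (eq_of_le_of_card_ge hRCR (by rw [h, hR8])).symm
    · exact absurd hHCR (F.not_normal_sixteen ht hy hyH CR hCRH h)
  -- the normalizer of `R` is `H`
  set N := normalizer (R : Set G) with hN
  have hNH : N = H := by
    let φ : N →* MulAut R := R.normalizerMonoidHom
    have hk : φ.ker = CR.subgroupOf N := R.normalizerMonoidHom_ker
    have hkc : Nat.card φ.ker = 8 := by
      rw [hk, Nat.card_congr (subgroupOfEquivOfLe (hCRH.trans hRn)).toEquiv, hCReq, hR8]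
    have h1 := φ.ker.index_mul_card
    rw [index_ker, hkc] at h1
    have haut : Nat.card (MulAut R) ∣ 168 := by
      let _ : CommGroup R := { (inferInstance : Group R) with
        mul_comm := fun a b => Subtype.ext (hRab a a.2 b b.2) }
      have := H91.OddOnTwo.card_mulAut_dvd (V := R) (n := 3)
        (fun v => Subtype.ext (by rw [SubgroupClass.coe_pow, sq]; exact hR2 v v.2))
        (by rw [hR8]; norm_num)
      simpa [Fin.prod_univ_three] using this
    have h48 : 48 ∣ Nat.card N := F.card_cent t ht ▸ card_dvd_of_le hRn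
    have h5616 : Nat.card N ∣ 5616 := F.hcard ▸ N.card_subgroup_dvd_card
    have hk168 : Nat.card φ.range ∣ 168 := φ.range.card_subgroup_dvd_card.trans haut
    have hk702 : Nat.card φ.range ∣ 702 := by
      rw [← h1] at h5616
      exact Nat.dvd_of_mul_dvd_mul_right (by norm_num : 0 < 8)
        (h5616.trans (by norm_num : 5616 ∣ 702 * 8))
    have h6 : Nat.card φ.range ∣ 6 :=
      (Nat.dvd_gcd hk168 hk702).trans (show Nat.gcd 168 702 = 6 by norm_num).dvd
    have hle48 : Nat.card N ≤ 48 := by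
      rw [← h1]; exact Nat.mul_le_mul_right 8 (Nat.le_of_dvd (by norm_num) h6)
    exact (eq_of_le_of_card_ge hRn (hle48.trans (F.card_cent t ht).ge)).symm
  -- a Sylow subgroup `T` above `R` inside `H`
  obtain ⟨T₀, hT₀, hRT₀⟩ := Sylow.exists_subgroup_card_pow_succ (G := H) (p := 2) (n := 3)
    (by rw [hH, F.card_cent t ht]; norm_num) (H := R.subgroupOf H)
    (by rw [Nat.card_congr (subgroupOfEquivOfLe hR).toEquiv, hR8]; norm_num)
  set T := T₀.map H.subtype with hTdef
  have hT16 : Nat.card T = 16 := by rw [hTdef, card_subtype, hT₀]; norm_num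
  have hTH : T ≤ H := map_subtype_le T₀
  have hRT : R ≤ T := fun a ha => ⟨⟨a, hR ha⟩, hRT₀ ha, rfl⟩
  obtain ⟨P, hP⟩ := F.exists_sylow_eq T hT16
  obtain ⟨x, hxT, hxR⟩ : ∃ x ∈ T, x ∉ R := by
    by_contra h
    push Not at h
    have := card_le_of_le (show T ≤ R from h)
    omega
  have hcoset : ∀ w ∈ T, w ∈ R ∨ w * x ∈ R := by
    intro w hw
    have hidx : (R.subgroupOf T).index = 2 := by
      have := (R.subgroupOf T).index_mul_card
      rw [Nat.card_congr (subgroupOfEquivOfLe hRT).toEquiv, hR8, hT16] at this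
      omega
    by_cases hwR : w ∈ R
    · exact Or.inl hwR
    · right
      exact (mul_mem_iff_of_index_two hidx (a := ⟨w, hw⟩) (b := ⟨x, hxT⟩)).mpr
        ⟨fun h => absurd h hwR, fun h => absurd h hxR⟩
  have hxn : ∀ a ∈ R, x * a * x⁻¹ ∈ R := fun a ha =>
    (mem_normalizer_iff.mp (hRn (hTH hxT)) a).mp ha
  obtain ⟨s, hsR, hs1, hst, hsx⟩ : ∃ s ∈ R, s ≠ 1 ∧ s ≠ t ∧ x * s * x⁻¹ = s := by
    let f : R →* R :=
      { toFun := fun r => ⟨r * (x * r * x⁻¹), mul_mem r.2 (hxn r r.2)⟩
        map_one' := Subtype.ext (by simp)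
        map_mul' := fun r u => Subtype.ext (by
          show (r * u : G) * (x * (r * u) * x⁻¹) = r * (x * r * x⁻¹) * (u * (x * u * x⁻¹))
          rw [show x * ((r : G) * u) * x⁻¹ = (x * r * x⁻¹) * (x * u * x⁻¹) by group]
          have hc := hRab u u.2 (x * r * x⁻¹) (hxn r r.2)
          calc (r : G) * u * (x * r * x⁻¹ * (x * u * x⁻¹))
              = r * (u * (x * r * x⁻¹)) * (x * u * x⁻¹) := by group
            _ = r * ((x * r * x⁻¹) * u) * (x * u * x⁻¹) := by rw [hc]
            _ = r * (x * r * x⁻¹) * (u * (x * u * x⁻¹)) := by group) }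
    have hkerfix : ∀ r : R, r ∈ f.ker → x * (r : G) * x⁻¹ = r := fun r hr => by
      have h1 : (r : G) * (x * r * x⁻¹) = 1 := congrArg Subtype.val (MonoidHom.mem_ker.mp hr)
      rw [← inv_eq_of_mul_eq_one_right h1]
      exact inv_eq_of_mul_eq_one_right (hR2 r r.2)
    have hrk : f.range ≤ f.ker := by
      rintro _ ⟨r, rfl⟩
      refine MonoidHom.mem_ker.mpr (Subtype.ext ?_)
      show ((r : G) * (x * r * x⁻¹)) * (x * ((r : G) * (x * r * x⁻¹)) * x⁻¹) = 1
      have hxx : x * x ∈ R := by
        rcases hcoset x hxT with h | h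
        · exact absurd h hxR
        · exact h
      have hxxc : x * x * r * (x * x)⁻¹ = r := by
        rw [hRab _ hxx _ r.2, mul_inv_cancel_right]
      have e : x * ((r : G) * (x * r * x⁻¹)) * x⁻¹ = (x * r * x⁻¹) * (x * x * r * (x * x)⁻¹) := by
        group
      rw [e, hxxc, hRab _ (hxn r r.2) _ r.2]
      exact hR2 _ (mul_mem r.2 (hxn r r.2))
    have h1 := f.ker.index_mul_card
    rw [index_ker, hR8] at h1
    have h2 : Nat.card f.range ∣ Nat.card f.ker := card_dvd_of_le hrk
    have hk4 : 2 < Nat.card f.ker := by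
      have hle := Nat.le_of_dvd Nat.card_pos h2
      by_contra h
      nlinarith
    by_contra hcon
    push Not at hcon
    have hsub : ∀ r : R, r ∈ f.ker → r ∈ zpowers (⟨t, htR⟩ : R) := fun r hr => by
      by_cases h1' : (r : G) = 1
      · rw [show r = 1 from Subtype.ext h1']; exact one_mem _
      by_cases h2' : (r : G) = t
      · rw [show r = ⟨t, htR⟩ from Subtype.ext h2']; exact mem_zpowers _
      exact absurd (hkerfix r hr) (hcon r r.2 h1' h2')
    have := card_le_of_le (show f.ker ≤ zpowers (⟨t, htR⟩ : R) from hsub)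
    rw [Nat.card_zpowers, orderOf_mk, ht] at this
    omega
  have hsT : s ∈ centralizer (T : Set G) := by
    refine mem_centralizer_iff.mpr fun w hw => ?_
    rcases hcoset w hw with h | h
    · exact hRab w h s hsR
    · have hxs : Commute x s := mul_inv_eq_iff_eq_mul.mp hsx
      have hwx : Commute (w * x) s := hRab _ h s hsR
      have := hwx.mul_left hxs.inv_left
      rwa [mul_inv_cancel_right] at this
  have htT : t ∈ centralizer (T : Set G) :=
    mem_centralizer_iff.mpr fun w hw => mem_centralizer_singleton_iff.mp (hTH hw)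
  have hs2 : orderOf s = 2 := orderOf_eq_prime (by rw [sq]; exact hR2 s hsR) hs1
  obtain ⟨g, hg⟩ := isConj_iff.mp (F.one_class t s ht hs2)
  obtain ⟨n, hn, hn'⟩ := H22.burnside_fusion_central P (x := t)
    (by show _ ∈ centralizer ((P : Subgroup G) : Set G); rw [hP]; exact htT) g
    (by show _ ∈ centralizer ((P : Subgroup G) : Set G); rw [hg, hP]; exact hsT)
  rw [hg] at hn'
  replace hn : n ∈ normalizer (T : Set G) := by
    have h : n ∈ normalizer ((P : Subgroup G) : Set G) := hn
    rwa [hP] at h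
  have hnH : n ∉ H := fun h => hst (by
    rw [← hn', mem_centralizer_singleton_iff.mp h, mul_inv_cancel_right])
  -- conjugates of `R` inside `T`
  let cR : G → Subgroup G := fun m => R.map (MulAut.conj m).toMonoidHom
  have cmem : ∀ {m a : G}, a ∈ cR m ↔ m⁻¹ * a * m ∈ R := mem_map_conj
  have ccard : ∀ m, Nat.card (cR m) = 8 := fun m => by
    rw [← Nat.card_congr (R.equivMapOfInjective _ (MulAut.conj m).injective).toEquiv, hR8]
  have cT : ∀ m ∈ normalizer (T : Set G), cR m ≤ T := fun m hm a ha => by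
    have := hRT (cmem.mp ha)
    exact (mem_normalizer_iff''.mp hm a).mpr this
  have cab : ∀ m, ∀ a ∈ cR m, ∀ b ∈ cR m, a * b = b * a := fun m a ha b hb => by
    have h := hRab _ (cmem.mp ha) _ (cmem.mp hb)
    calc a * b = m * ((m⁻¹ * a * m) * (m⁻¹ * b * m)) * m⁻¹ := by group
      _ = m * ((m⁻¹ * b * m) * (m⁻¹ * a * m)) * m⁻¹ := by rw [h]
      _ = b * a := by group
  have cself : ∀ m, ∀ w, (∀ a ∈ cR m, a * w = w * a) → w ∈ cR m := fun m w hw => by
    refine cmem.mpr (hCReq ▸ mem_centralizer_iff.mpr fun a ha => ?_)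
    have h := hw (m * a * m⁻¹) (cmem.mpr (by rwa [show m⁻¹ * (m * a * m⁻¹) * m = a by group]))
    calc a * (m⁻¹ * w * m) = m⁻¹ * ((m * a * m⁻¹) * w) * m := by group
      _ = m⁻¹ * (w * (m * a * m⁻¹)) * m := by rw [h]
      _ = m⁻¹ * w * m * a := by group
  have c2 : ∀ m, ∀ a ∈ cR m, a * a = 1 := fun m a ha => by
    have h := hR2 _ (cmem.mp ha)
    calc a * a = m * ((m⁻¹ * a * m) * (m⁻¹ * a * m)) * m⁻¹ := by group
      _ = 1 := by rw [h]; group
  set Z₀ := T ⊓ centralizer (T : Set G) with hZ₀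
  have hZle : ∀ m ∈ normalizer (T : Set G), Z₀ ≤ cR m := fun m hm w hw =>
    cself m w fun a ha => mem_centralizer_iff.mp hw.2 a (cT m hm ha)
  have hinter : ∀ m ∈ normalizer (T : Set G), ∀ m' ∈ normalizer (T : Set G), cR m ≠ cR m' →
      cR m ⊓ cR m' = Z₀ ∧ Nat.card Z₀ = 4 := by
    intro m hm m' hm' hne
    have hsup : cR m ⊔ cR m' = T := by
      refine eq_of_le_of_card_ge (sup_le (cT m hm) (cT m' hm')) ?_
      have h8 : 8 ∣ Nat.card ↥(cR m ⊔ cR m') := ccard m ▸ card_dvd_of_le le_sup_left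
      have h16 : Nat.card ↥(cR m ⊔ cR m') ∣ 16 :=
        hT16 ▸ card_dvd_of_le (sup_le (cT m hm) (cT m' hm'))
      have hne8 : Nat.card ↥(cR m ⊔ cR m') ≠ 8 := fun h => hne
        ((eq_of_le_of_card_ge le_sup_left (by rw [h, ccard m])).trans
          (eq_of_le_of_card_ge le_sup_right (by rw [h, ccard m'])).symm)
      have hall : ∀ d ∈ Nat.divisors 16, 8 ∣ d → d ≠ 8 → d = 16 := by decide +kernel
      rw [hall _ (Nat.mem_divisors.mpr ⟨h16, by norm_num⟩) h8 hne8, hT16]
    have hI : cR m ⊓ cR m' = Z₀ := by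
      refine le_antisymm (fun w hw => ⟨cT m hm hw.1, ?_⟩) (le_inf (hZle m hm) (hZle m' hm'))
      have hle : cR m ⊔ cR m' ≤ centralizer ({w} : Set G) := sup_le
        (fun a ha => mem_centralizer_singleton_iff.mpr (cab m a ha w hw.1))
        (fun a ha => mem_centralizer_singleton_iff.mpr (cab m' a ha w hw.2))
      exact mem_centralizer_iff.mpr fun a ha =>
        mem_centralizer_singleton_iff.mp (hle (hsup ▸ ha))
    refine ⟨hI, ?_⟩
    have h8 : Nat.card Z₀ ∣ 8 := by rw [← hI, ← ccard m]; exact card_dvd_of_le inf_le_left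
    have hne8 : Nat.card Z₀ ≠ 8 := fun h => hne (by
      rw [← hI] at h
      exact (eq_of_le_of_card_ge inf_le_left (by rw [h, ccard m])).symm.trans
        (eq_of_le_of_card_ge inf_le_right (by rw [h, ccard m'])))
    have hge : 4 ≤ Nat.card Z₀ := by
      have h1 : ((cR m).subgroupOf T ⊓ (cR m').subgroupOf T).index ≤
          ((cR m).subgroupOf T).index * ((cR m').subgroupOf T).index := index_inf_le
      have hi : ∀ K : Subgroup G, K ≤ T → (K.subgroupOf T).index * Nat.card K = 16 := fun K hK => by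
        rw [← Nat.card_congr (subgroupOfEquivOfLe hK).toEquiv, index_mul_card, hT16]
      have e1 := hi _ (cT m hm)
      have e2 := hi _ (cT m' hm')
      rw [ccard] at e1 e2
      rw [show (cR m).subgroupOf T ⊓ (cR m').subgroupOf T = (cR m ⊓ cR m').subgroupOf T from
        (comap_inf _ _ _).symm, hI] at h1
      have e3 := hi Z₀ inf_le_left
      rw [show ((cR m).subgroupOf T).index = 2 by omega,
        show ((cR m').subgroupOf T).index = 2 by omega] at h1
      nlinarith
    have hall : ∀ d ∈ Nat.divisors 8, d ≠ 8 → 4 ≤ d → d = 4 := by decide +kernel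
    exact hall _ (Nat.mem_divisors.mpr ⟨h8, by norm_num⟩) hne8 hge
  have h1N : (1 : G) ∈ normalizer (T : Set G) := one_mem _
  have hc1 : cR 1 = R := by
    ext a
    rw [cmem, inv_one, one_mul, mul_one]
  have hnn : n * n ∈ normalizer (T : Set G) := mul_mem hn hn
  have fix_mem : ∀ m, cR m = R → m ∈ H := fun m h => by
    rw [← hNH, hN, mem_normalizer_iff'']
    intro a
    have hiff := (cmem (m := m) (a := a))
    rw [h] at hiff
    exact hiff
  have hn2 : n * n ∈ H := by
    refine fix_mem _ ?_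
    by_contra hne
    have hd1 : cR 1 ≠ cR n := fun h => hnH (fix_mem n (h.symm.trans hc1))
    have hd2 : cR 1 ≠ cR (n * n) := fun h => hne (h.symm.trans hc1)
    have hd3 : cR n ≠ cR (n * n) := fun h => hd1 (by
      ext a
      have h' : n * a * n⁻¹ ∈ cR n ↔ n * a * n⁻¹ ∈ cR (n * n) := by rw [h]
      rw [cmem, cmem, show n⁻¹ * (n * a * n⁻¹) * n = a by group,
        show (n * n)⁻¹ * (n * a * n⁻¹) * (n * n) = n⁻¹ * a * n by group] at h'
      rw [cmem, cmem, inv_one, one_mul, mul_one]
      exact h')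
    obtain ⟨hI12, hZ4⟩ := hinter 1 h1N n hn hd1
    obtain ⟨hI13, -⟩ := hinter 1 h1N (n * n) hnn hd2
    obtain ⟨hI23, -⟩ := hinter n hn (n * n) hnn hd3
    have n1 : ∀ m, ((cR m : Set G)).ncard = 8 := fun m => by
      rw [← Nat.card_coe_set_eq]; exact ccard m
    have nZ : (Z₀ : Set G).ncard = 4 := by rw [← Nat.card_coe_set_eq]; exact hZ4
    have u12 := Set.ncard_union_add_ncard_inter (cR 1 : Set G) (cR n : Set G)
    rw [← coe_inf, hI12, nZ, n1, n1] at u12
    have hi3 : ((cR 1 : Set G) ∪ (cR n : Set G)) ∩ (cR (n * n) : Set G) = (Z₀ : Set G) := by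
      rw [Set.union_inter_distrib_right, ← coe_inf, ← coe_inf, hI13, hI23, Set.union_self]
    have u123 := Set.ncard_union_add_ncard_inter ((cR 1 : Set G) ∪ (cR n : Set G))
      (cR (n * n) : Set G)
    rw [hi3, nZ, n1] at u123
    have hsub : (cR 1 : Set G) ∪ (cR n : Set G) ∪ (cR (n * n) : Set G) ⊆ (T : Set G) :=
      Set.union_subset (Set.union_subset (cT 1 h1N) (cT n hn)) (cT (n * n) hnn)
    have heq := Set.eq_of_subset_of_ncard_le hsub (by
      rw [show (T : Set G).ncard = 16 by rw [← Nat.card_coe_set_eq]; exact hT16]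
      omega)
    have hT2 : ∀ w ∈ T, w * w = 1 := by
      intro w hw
      have : w ∈ (cR 1 : Set G) ∪ (cR n : Set G) ∪ (cR (n * n) : Set G) := heq ▸ hw
      rcases this with (h | h) | h <;> exact c2 _ _ h
    exact hxR (hCReq ▸ mem_centralizer_iff.mpr fun a ha =>
      commute_of_sq (hT2 a (hRT ha)) (hT2 x hxT) (hT2 _ (mul_mem (hRT ha) hxT)))
  -- the 2-part of `n` lies in `T`
  obtain ⟨a, m, hm2, hord⟩ := Nat.exists_eq_pow_mul_and_not_dvd (orderOf_pos n).ne' 2 (by norm_num)
  have hnm : n ^ m ∈ T := by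
    have hp : IsPGroup 2 (zpowers (n ^ m)) := by
      refine IsPGroup.of_card (n := a) ?_
      have hm0 : 0 < m := Nat.pos_of_ne_zero fun h => hm2 (h ▸ dvd_zero 2)
      rw [Nat.card_zpowers, orderOf_pow' n hm0.ne', hord,
        Nat.gcd_eq_right (dvd_mul_left m (2 ^ a)), Nat.mul_div_cancel _ hm0]
    have hle : zpowers (n ^ m) ≤ normalizer ((P : Subgroup G) : Set G) :=
      zpowers_le.mpr (pow_mem (hP ▸ hn) m)
    have hsup : IsPGroup 2 (zpowers (n ^ m) ⊔ (P : Subgroup G) : Subgroup G) :=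
      hp.to_sup_of_normal_right' P.2 hle
    rw [← hP, ← P.3 hsup le_sup_right]
    exact mem_sup_left (mem_zpowers _)
  obtain ⟨k, hk⟩ : Odd m := Nat.not_even_iff_odd.mp fun h => hm2 h.two_dvd
  apply hnH
  have h2k : (n * n) ^ k ∈ H := pow_mem hn2 k
  have h2m : n ^ m ∈ H := hTH hnm
  rw [hk, pow_succ, pow_mul, sq] at h2m
  exact (mul_mem_cancel_left h2k).mp h2m

/-- A subgroup of order eight, normal in `C(t)`, has `t` as its only involution. -/
theorem Facts.unique_involution_eight (F : Facts C) {t y : G} (ht : orderOf t = 2)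
    (hy : orderOf y = 3) (hyH : y ∈ centralizer ({t} : Set G)) (R : Subgroup G)
    (hR : R ≤ centralizer ({t} : Set G)) (htR : t ∈ R) (hR8 : Nat.card R = 8)
    (hRn : centralizer ({t} : Set G) ≤ normalizer (R : Set G)) {s : G} (hsR : s ∈ R)
    (hs : orderOf s = 2) : s = t := by
  classical
  have : Fact (Nat.Prime 2) := ⟨Nat.prime_two⟩
  by_contra hst
  refine F.no_eight ht hy hyH R hR htR hR8 ?_ hRn
  set D := R ⊓ centralizer ({y} : Set G) with hD
  have hDt : D ≤ zpowers t := by
    have hd1 : Nat.card D ∣ 6 := F.card_centralizer_three ht hy hyH ▸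
      card_dvd_of_le (inf_le_inf_right _ hR)
    have hd2 : Nat.card D ∣ 8 := hR8 ▸ card_dvd_of_le inf_le_left
    have hle : zpowers t ≤ D := zpowers_le.mpr ⟨htR,
      mem_centralizer_singleton_iff.mpr (mem_centralizer_singleton_iff.mp hyH).symm⟩
    refine (eq_of_le_of_card_ge hle ?_).ge
    rw [Nat.card_zpowers, ht]
    exact Nat.le_of_dvd two_pos ((Nat.dvd_gcd hd1 hd2).trans (show Nat.gcd 6 8 = 2 by norm_num).dvd)
  have ht2 : t * t = 1 := by rw [← sq, ← ht, pow_orderOf_eq_one]
  have hs2 : s * s = 1 := by rw [← sq, ← hs, pow_orderOf_eq_one]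
  have hts : Commute t s := (mem_centralizer_singleton_iff.mp (hR hsR)).symm
  let W : Subgroup G :=
    { carrier := {1, t, s, t * s}
      one_mem' := Or.inl rfl
      mul_mem' := by
        intro a b ha hb
        simp only [Set.mem_insert_iff, Set.mem_singleton_iff] at ha hb ⊢
        have e1 : s * t = t * s := hts.eq.symm
        have e2 : t * (t * s) = s := by rw [← mul_assoc, ht2, one_mul]
        have e3 : s * (t * s) = t := by rw [← mul_assoc, e1, mul_assoc, hs2, mul_one]
        have e4 : t * s * t = s := by rw [mul_assoc, e1, e2]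
        have e5 : t * s * s = t := by rw [mul_assoc, hs2, mul_one]
        have e6 : t * s * (t * s) = 1 := by rw [← mul_assoc, e4, hs2]
        rcases ha with rfl | rfl | rfl | rfl <;> rcases hb with rfl | rfl | rfl | rfl <;>
          simp [ht2, hs2, e1, e2, e3, e4, e5, e6]
      inv_mem' := by
        intro a ha
        simp only [Set.mem_insert_iff, Set.mem_singleton_iff] at ha ⊢
        have hti : t⁻¹ = t := inv_eq_of_mul_eq_one_right ht2
        have hsi : s⁻¹ = s := inv_eq_of_mul_eq_one_right hs2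
        rcases ha with rfl | rfl | rfl | rfl <;> simp [hti, hsi, mul_inv_rev, hts.eq.symm] }
  have hs1 : s ≠ 1 := fun h => by rw [h, orderOf_one] at hs; omega
  have ht1 : t ≠ 1 := fun h => by rw [h, orderOf_one] at ht; omega
  have hW4 : Nat.card W = 4 := by
    change Nat.card ({1, t, s, t * s} : Set G) = 4
    rw [Nat.card_coe_set_eq, Set.ncard_insert_of_notMem, Set.ncard_insert_of_notMem,
      Set.ncard_pair] <;>
      simp only [Set.mem_insert_iff, Set.mem_singleton_iff, ne_eq, not_or]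
    · intro h; exact ht1 (mul_eq_right.mp h.symm)
    · exact ⟨Ne.symm hst, fun h => hs1 (mul_eq_left.mp h.symm)⟩
    · refine ⟨ht1.symm, hs1.symm, fun h => hst ?_⟩
      exact (inv_eq_of_mul_eq_one_right h.symm).symm.trans (inv_eq_of_mul_eq_one_right ht2)
  have hWR : W ≤ R := by
    rintro a (rfl | rfl | rfl | rfl)
    exacts [one_mem _, htR, hsR, mul_mem htR hsR]
  have hW2 : ∀ a ∈ W, a * a = 1 := by
    rintro a (rfl | rfl | rfl | rfl)
    · exact one_mul 1
    · exact ht2
    · exact hs2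
    · rw [mul_assoc, ← mul_assoc s t s, ← hts.eq, mul_assoc t s s, hs2, mul_one, ht2]
  let cW : G → Subgroup G := fun m => W.map (MulAut.conj m).toMonoidHom
  have cmem : ∀ {m a : G}, a ∈ cW m ↔ m⁻¹ * a * m ∈ W := mem_map_conj
  have ccard : ∀ m, Nat.card (cW m) = 4 := fun m => by
    rw [← Nat.card_congr (W.equivMapOfInjective _ (MulAut.conj m).injective).toEquiv, hW4]
  have ct : ∀ m ∈ zpowers y, t ∈ cW m := fun m hm => by
    obtain ⟨i, rfl⟩ := mem_zpowers_iff.mp hm
    have hc : Commute t (y ^ i) :=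
      (show Commute t y from (mem_centralizer_singleton_iff.mp hyH).symm).zpow_right i
    rw [cmem, mul_assoc, hc.eq, inv_mul_cancel_left]
    exact Or.inr (Or.inl rfl)
  have cR' : ∀ m ∈ zpowers y, cW m ≤ R := fun m hm a ha => by
    have hmn : m ∈ normalizer (R : Set G) := zpowers_le.mpr (hRn hyH) hm
    exact (mem_normalizer_iff''.mp hmn a).mpr (hWR (cmem.mp ha))
  have hW1 : cW 1 = W := by ext a; rw [cmem, inv_one, one_mul, mul_one]
  have hneW : cW y ≠ cW 1 := by
    intro h
    have hyW : y ∈ normalizer (W : Set G) := by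
      rw [mem_normalizer_iff'']
      intro a
      have hiff := (cmem (m := y) (a := a))
      rw [h, hW1] at hiff
      exact hiff
    have hmod := fixed_mod_three hy hyW
    have hle : W ⊓ centralizer ({y} : Set G) ≤ zpowers t := (inf_le_inf_right _ hWR).trans hDt
    have hge : zpowers t ≤ W ⊓ centralizer ({y} : Set G) := zpowers_le.mpr ⟨Or.inr (Or.inl rfl),
      mem_centralizer_singleton_iff.mpr (mem_centralizer_singleton_iff.mp hyH).symm⟩
    rw [hW4, le_antisymm hle hge, Nat.card_zpowers, ht] at hmod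
    norm_num at hmod
  have hne2 : cW 1 ≠ cW (y * y) := fun h => hneW (by
    have hy3 : y * y * y = 1 := by
      rw [← sq, ← pow_succ]; simpa [hy] using pow_orderOf_eq_one y
    ext a
    have h' : y * a * y⁻¹ ∈ cW 1 ↔ y * a * y⁻¹ ∈ cW (y * y) := by rw [h]
    rw [cmem, cmem, inv_one, one_mul, mul_one,
      show (y * y)⁻¹ * (y * a * y⁻¹) * (y * y) = y⁻¹ * a * y by group] at h'
    rw [cmem (m := y), cmem (m := 1), inv_one, one_mul, mul_one, ← h']
    have e : y * a * y⁻¹ = (y * y)⁻¹ * a * (y * y) := by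
      have e1 : (y * y)⁻¹ = y := inv_eq_of_mul_eq_one_right hy3
      have e2 : y * y = y⁻¹ := eq_inv_of_mul_eq_one_left hy3
      rw [e1, e2]
    rw [e]
    have h'' : (y * y)⁻¹ * a * (y * y) ∈ W ↔ a ∈ W := by
      rw [← cmem (m := y * y), ← h, hW1]
    exact h'')
  have hne3 : cW y ≠ cW (y * y) := fun h => hneW (by
    ext a
    have h' : y * a * y⁻¹ ∈ cW y ↔ y * a * y⁻¹ ∈ cW (y * y) := by rw [h]
    rw [cmem, cmem, show y⁻¹ * (y * a * y⁻¹) * y = a by group,
      show (y * y)⁻¹ * (y * a * y⁻¹) * (y * y) = y⁻¹ * a * y by group] at h'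
    rw [cmem (m := y), cmem (m := 1), inv_one, one_mul, mul_one]
    exact h'.symm)
  have m1 : (1 : G) ∈ zpowers y := one_mem _
  have my : y ∈ zpowers y := mem_zpowers y
  have myy : y * y ∈ zpowers y := mul_mem my my
  have hint : ∀ m ∈ zpowers y, ∀ m' ∈ zpowers y, cW m ≠ cW m' →
      ((cW m ⊓ cW m' : Subgroup G) : Set G) = (zpowers t : Set G) := by
    intro m hm m' hm' hne
    have hle : zpowers t ≤ cW m ⊓ cW m' := zpowers_le.mpr ⟨ct m hm, ct m' hm'⟩
    refine congrArg _ (eq_of_le_of_card_ge hle ?_).symm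
    rw [Nat.card_zpowers, ht]
    have hd : Nat.card ↥(cW m ⊓ cW m') ∣ 4 := ccard m ▸ card_dvd_of_le inf_le_left
    have hn4 : Nat.card ↥(cW m ⊓ cW m') ≠ 4 := fun h => hne
      ((eq_of_le_of_card_ge inf_le_left (by rw [h, ccard m])).symm.trans
        (eq_of_le_of_card_ge inf_le_right (by rw [h, ccard m'])))
    have hall : ∀ d ∈ Nat.divisors 4, d ≠ 4 → d ≤ 2 := by decide +kernel
    exact hall _ (Nat.mem_divisors.mpr ⟨hd, by norm_num⟩) hn4
  have n1 : ∀ m, (cW m : Set G).ncard = 4 := fun m => by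
    rw [← Nat.card_coe_set_eq]; exact ccard m
  have nt : (zpowers t : Set G).ncard = 2 := by
    rw [← Nat.card_coe_set_eq]; exact (Nat.card_zpowers t).trans ht
  have u12 := Set.ncard_union_add_ncard_inter (cW 1 : Set G) (cW y : Set G)
  rw [← coe_inf, hint 1 m1 y my hneW.symm, nt, n1, n1] at u12
  have hi3 : ((cW 1 : Set G) ∪ (cW y : Set G)) ∩ (cW (y * y) : Set G) = (zpowers t : Set G) := by
    rw [Set.union_inter_distrib_right, ← coe_inf, ← coe_inf, hint 1 m1 _ myy hne2,
      hint y my _ myy hne3, Set.union_self]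
  have u123 := Set.ncard_union_add_ncard_inter ((cW 1 : Set G) ∪ (cW y : Set G))
    (cW (y * y) : Set G)
  rw [hi3, nt, n1] at u123
  have hsub : (cW 1 : Set G) ∪ (cW y : Set G) ∪ (cW (y * y) : Set G) ⊆ (R : Set G) :=
    Set.union_subset (Set.union_subset (cR' 1 m1) (cR' y my)) (cR' (y * y) myy)
  have heq := Set.eq_of_subset_of_ncard_le hsub (by
    rw [show (R : Set G).ncard = 8 by rw [← Nat.card_coe_set_eq]; exact hR8]
    omega)
  intro a ha
  have ha' : a ∈ (cW 1 : Set G) ∪ (cW y : Set G) ∪ (cW (y * y) : Set G) := heq ▸ ha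
  have c2 : ∀ m, ∀ b ∈ cW m, b * b = 1 := fun m b hb => by
    have h := hW2 _ (cmem.mp hb)
    calc b * b = m * ((m⁻¹ * b * m) * (m⁻¹ * b * m)) * m⁻¹ := by group
      _ = 1 := by rw [h]; group
  rcases ha' with (h | h) | h <;> exact c2 _ _ h

theorem quaternion_sixteen_involution : ∀ x : QuaternionGroup 4,
    x * x = 1 → x = 1 ∨ x = QuaternionGroup.a 4 := by decide +kernel

/-- The centralizer of an involution is `GL(2,3)`. -/
theorem Facts.centralizer_iso (F : Facts C) {t : G} (ht : orderOf t = 2) :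
    Nonempty (centralizer ({t} : Set G) ≃* GL (Fin 2) (ZMod 3)) := by
  classical
  have : Fact (Nat.Prime 2) := ⟨Nat.prime_two⟩
  have : Fact (Nat.Prime 3) := ⟨Nat.prime_three⟩
  set H := centralizer ({t} : Set G) with hH
  have hH48 : Nat.card H = 48 := F.card_cent t ht
  obtain ⟨y₀, hy₀⟩ := exists_prime_orderOf_dvd_card' (G := H) 3 (by rw [hH48]; norm_num)
  rw [← orderOf_coe] at hy₀
  set y : G := y₀.1 with hydef
  have hyH : y ∈ H := y₀.2
  have : Group.IsSolvable H :=
    H25.isSolvable_of_card_eq_mul_pow (a := 4) (b := 1) Nat.prime_two Nat.prime_three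
      (by rw [hH48]; norm_num)
  have hcore : Cfsg.pPrimeCore 2 H = ⊥ := by
    have hn := H19.pPrimeCore_normal 2 H
    have hc := H19.pPrimeCore_coprime (G := H) 2
    have hd : Nat.card (Cfsg.pPrimeCore 2 H) ∣ 48 := hH48 ▸ card_subgroup_dvd_card _
    have hall : ∀ d ∈ Nat.divisors 48, Nat.Coprime d 2 → d = 1 ∨ d = 3 := by decide +kernel
    rcases hall _ (Nat.mem_divisors.mpr ⟨hd, by norm_num⟩) hc with h | h
    · exact card_eq_one.mp h
    exfalso
    obtain ⟨w, hw⟩ := exists_prime_orderOf_dvd_card' (G := Cfsg.pPrimeCore 2 H) 3 (by rw [h])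
    rw [← orderOf_coe] at hw
    have hzw : zpowers (w : H) = Cfsg.pPrimeCore 2 H :=
      eq_of_le_of_card_ge (zpowers_le.mpr w.2) (by rw [h, Nat.card_zpowers, hw])
    have hw' : orderOf ((w : H) : G) = 3 := (orderOf_coe _).trans hw
    refine F.not_normal_three ht hw' (w : H).2 ?_
    have hmap : (zpowers (w : H)).map H.subtype = zpowers ((w : H) : G) :=
      MonoidHom.map_zpowers _ _
    rw [← hzw] at hn
    rw [← hmap]
    refine (normal_subgroupOf_iff_le_normalizer (map_subtype_le _)).mp ?_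
    rw [subgroupOf, comap_map_eq_self_of_injective H.subtype_injective]
    exact hn
  have hmapc : ∀ S : Sylow 2 H, Nat.card ((S : Subgroup H).map H.subtype) = 16 := fun S => by
    rw [card_subtype]
    simpa using H30.card_sylow_subgroup (a := 4) (m := 3) S (by rw [hH48]; norm_num) (by norm_num)
  have hI : ∀ S T : Sylow 2 H, S ≠ T → ∀ A : Subgroup H, IsMulCommutative A →
      (∀ a ∈ A, a ^ 2 = 1) → A ≤ S → A ≤ T → Nat.card A ≤ 2 := by
    intro S T hne A _ hA2 hAS hAT
    set S' := (S : Subgroup H).map H.subtype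
    set T' := (T : Subgroup H).map H.subtype
    have hne' : S' ≠ T' := fun h => hne (Sylow.ext (map_injective H.subtype_injective h))
    obtain ⟨hR8, hRn⟩ := F.inter_normal ht S' T' (map_subtype_le _) (map_subtype_le _)
      (hmapc S) (hmapc T) hne'
    set R := S' ⊓ T'
    have htR : t ∈ R := by
      have ht' : t ∈ H := mem_centralizer_singleton_iff.mpr rfl
      have key : ∀ U : Sylow 2 H, (⟨t, ht'⟩ : H) ∈ (U : Subgroup H) := by
        intro U
        have hsub : IsPGroup 2 (zpowers (⟨t, ht'⟩ : H)) :=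
          IsPGroup.of_card (n := 1) (by rw [Nat.card_zpowers, orderOf_mk, ht, pow_one])
        obtain ⟨V, hV⟩ := hsub.exists_le_sylow
        obtain ⟨g, hg⟩ := MulAction.exists_smul_eq H V U
        rw [← hg, H22.mem_smul_sylow]
        have : g⁻¹ * (⟨t, ht'⟩ : H) * g = ⟨t, ht'⟩ := by
          refine Subtype.ext ?_
          show (g : G)⁻¹ * t * (g : G) = t
          rw [mul_assoc, ← mem_centralizer_singleton_iff.mp g.2, inv_mul_cancel_left]
        rw [this]
        exact hV (mem_zpowers _)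
      exact ⟨⟨_, key S, rfl⟩, ⟨_, key T, rfl⟩⟩
    have hA : A ≤ zpowers (⟨t, mem_centralizer_singleton_iff.mpr rfl⟩ : H) := by
      intro a ha
      by_cases h1 : a = 1
      · rw [h1]; exact one_mem _
      have hao : orderOf (a : G) = 2 :=
        (orderOf_coe a).trans (orderOf_eq_prime (hA2 a ha) h1)
      have := F.unique_involution_eight ht hy₀ hyH R (inf_le_left.trans (map_subtype_le _)) htR hR8
        hRn ⟨⟨a, hAS ha, rfl⟩, ⟨a, hAT ha, rfl⟩⟩ hao
      rw [show a = ⟨t, mem_centralizer_singleton_iff.mpr rfl⟩ from Subtype.ext this]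
      exact mem_zpowers _
    have hc := card_le_of_le hA
    rwa [Nat.card_zpowers, orderOf_mk, ht] at hc
  rcases H60.RankOneInter.main hcore hI with ⟨P, hP⟩ | h | ⟨-, -, -, hQ⟩
  · exfalso
    refine F.not_normal_sixteen ht hy₀ hyH _ (map_subtype_le (P : Subgroup H)) (hmapc P) ?_
    refine (normal_subgroupOf_iff_le_normalizer (map_subtype_le _)).mp ?_
    rw [subgroupOf, comap_map_eq_self_of_injective H.subtype_injective]
    exact hP
  · exact h
  · exfalso
    let S : Sylow 2 H := default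
    obtain ⟨f⟩ := hQ S
    obtain ⟨P, hP⟩ := F.exists_sylow_eq _ (hmapc S)
    have ht' : t ∈ H := mem_centralizer_singleton_iff.mpr rfl
    have huniq : ∀ a b : (S : Subgroup H), a * a = 1 → b * b = 1 → a ≠ 1 → b ≠ 1 → a = b := by
      intro a b ha hb ha1 hb1
      apply f.injective
      have hf : ∀ c : (S : Subgroup H), c * c = 1 → c ≠ 1 → f c = QuaternionGroup.a 4 := fun c hc h1 =>
        (quaternion_sixteen_involution (f c) (by rw [← map_mul, hc, map_one])).resolve_left
          fun h => h1 ((map_eq_one_iff f f.injective).mp h)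
      rw [hf a ha ha1, hf b hb hb1]
    have htP : t ∈ (P : Subgroup G) := by
      rw [hP]
      have hsub : IsPGroup 2 (zpowers (⟨t, ht'⟩ : H)) :=
        IsPGroup.of_card (n := 1) (by rw [Nat.card_zpowers, orderOf_mk, ht, pow_one])
      obtain ⟨V, hV⟩ := hsub.exists_le_sylow
      obtain ⟨g, hg⟩ := MulAction.exists_smul_eq H V S
      refine ⟨⟨t, ht'⟩, ?_, rfl⟩
      show (⟨t, ht'⟩ : H) ∈ (S : Subgroup H)
      rw [← hg, H22.mem_smul_sylow]
      have : g⁻¹ * (⟨t, ht'⟩ : H) * g = ⟨t, ht'⟩ := by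
        refine Subtype.ext ?_
        show (g : G)⁻¹ * t * (g : G) = t
        rw [mul_assoc, ← mem_centralizer_singleton_iff.mp g.2, inv_mul_cancel_left]
      rw [this]
      exact hV (mem_zpowers _)
    have hiso : IsIsolatedInvolution t := H28.isIsolatedInvolution_of_sylow P ht fun g hg => by
      have ht1 : t ≠ 1 := fun h => by rw [h, orderOf_one] at ht; omega
      obtain ⟨a, ha, hae⟩ := (hP ▸ hg : g * t * g⁻¹ ∈ (S : Subgroup H).map H.subtype)
      obtain ⟨b, hb, hbe⟩ := (hP ▸ htP : t ∈ (S : Subgroup H).map H.subtype)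
      have ha2 : (a : G) * a = 1 := by
        rw [show (a : G) = g * t * g⁻¹ from hae]
        calc g * t * g⁻¹ * (g * t * g⁻¹) = g * (t * t) * g⁻¹ := by group
          _ = 1 := by rw [← sq, ← ht, pow_orderOf_eq_one]; group
      have hb2 : (b : G) * b = 1 := by
        rw [show (b : G) = t from hbe, ← sq, ← ht, pow_orderOf_eq_one]
      have := huniq ⟨a, ha⟩ ⟨b, hb⟩ (Subtype.ext (Subtype.ext ha2)) (Subtype.ext (Subtype.ext hb2))
        (fun h => ht1 (conj_eq_one_iff.mp ((Eq.symm hae).trans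
          (congrArg (fun c : (S : Subgroup H) => ((c : H) : G)) h))))
        (fun h => ht1 ((Eq.symm hbe).trans (congrArg (fun c : (S : Subgroup H) => ((c : H) : G)) h)))
      rw [← hae, ← hbe]
      exact congrArg (fun c : (S : Subgroup H) => ((c : H) : G)) this
    have hz := fun g => H28.zStar hiso g
    have hbot : Cfsg.pPrimeCore 2 G = ⊥ := by
      refine (IsSimpleGroup.eq_bot_or_eq_top_of_normal _ (H19.pPrimeCore_normal 2 G)).resolve_right
        fun h => ?_
      have hc := H19.pPrimeCore_coprime (G := G) 2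
      rw [h, card_top, F.hcard] at hc
      norm_num at hc
    have htc : t ∈ center G := mem_center_iff.mpr fun g => by
      have h := hz g
      rw [hbot, mem_bot, mul_inv_eq_one, mul_inv_eq_iff_eq_mul] at h
      exact h.symm
    rcases IsSimpleGroup.eq_bot_or_eq_top_of_normal (center G) inferInstance with h | h
    · rw [h, mem_bot] at htc
      rw [htc, orderOf_one] at ht
      omega
    · exact F.hG ⟨⟨fun a b => (mem_center_iff.mp (h ▸ mem_top b : b ∈ center G) a)⟩⟩

end Cfsg.Agent.H28.L33
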