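import Cfsg.Agent.H28.SmallOrders.L33.Bounds

/-!
# The involutions of a simple group of order 5616
-/

set_option autoImplicit false
set_option synthInstance.maxSize 1024

namespace Cfsg.Agent.H28.L33

open Finset
open scoped ComplexConjugate

variable {G : Type*} [Group G] [Fintype G] {z : G}

theorem equation_solutions : ∀ A ∈ Finset.Icc (-26 : ℤ) 26, ∀ B ∈ Finset.Icc (-11 : ℤ) 11,
    4 ∣ 27 - A → 4 ∣ 12 - B → 432 + 16 * A ^ 2 - 36 * B ^ 2 - 27 * (1 + A - B) ^ 2 = 0 →
    (A = 3 ∧ B = 4) ∨ (A = -9 ∧ B = 0) ∨ 432 < 1 + A ^ 2 + B ^ 2 + 4 * (1 + A - B) ^ 2 := by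
  decide +kernel

/-- The order of the centralizer of an element of order prime to thirteen divides 432. -/
theorem Chars.card_centralizer_dvd (C : Chars z) (hcard : Nat.card G = 5616) {u : G}
    (hu1 : u ≠ 1) (hu : orderOf u ≠ 13) :
    Nat.card (Subgroup.centralizer ({u} : Set G)) ∣ 432 := by
  have : Fact (Nat.Prime 13) := ⟨by norm_num⟩
  set H := Subgroup.centralizer ({u} : Set G)
  have hd : Nat.card H ∣ 432 * 13 := by
    have := H.card_subgroup_dvd_card
    rwa [hcard] at this
  refine Nat.Coprime.dvd_of_dvd_mul_right ?_ hd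
  refine ((by norm_num : Nat.Prime 13).coprime_iff_not_dvd.mpr fun h13 => ?_).symm
  obtain ⟨w, hw⟩ := exists_prime_orderOf_dvd_card' (G := H) 13 h13
  rw [← Subgroup.orderOf_coe] at hw
  have hP : IsPGroup 13 (Subgroup.zpowers (w : G)) :=
    IsPGroup.of_card (n := 1) (by rw [Nat.card_zpowers, hw, pow_one])
  have hQ : IsPGroup 13 (Subgroup.zpowers z) :=
    IsPGroup.of_card (n := 1) (by rw [Nat.card_zpowers, C.hz, pow_one])
  obtain ⟨P, hPle⟩ := hP.exists_le_sylow
  obtain ⟨Q, hQle⟩ := hQ.exists_le_sylow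
  have hS : ∀ S : Sylow 13 G, Nat.card (S : Subgroup G) = 13 := fun S => by
    simpa using H30.card_sylow_subgroup (a := 1) (m := 432) S (by rw [hcard]; norm_num) (by norm_num)
  have hQe : Subgroup.zpowers z = (Q : Subgroup G) :=
    Subgroup.eq_of_le_of_card_ge hQle (by rw [hS, Nat.card_zpowers, C.hz])
  obtain ⟨g, hg⟩ := MulAction.exists_smul_eq G P Q
  have hgw : g * (w : G) * g⁻¹ ∈ Subgroup.zpowers z := by
    rw [hQe, ← hg]
    exact ⟨w, hPle (Subgroup.mem_zpowers _), rfl⟩
  have hgo : orderOf (g * (w : G) * g⁻¹) = 13 :=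
    (isConj_orderOf (isConj_iff.mpr ⟨g, rfl⟩)).symm.trans hw
  have hz' : z ∈ Subgroup.zpowers (g * (w : G) * g⁻¹) :=
    (Subgroup.eq_of_le_of_card_ge (Subgroup.zpowers_le.mpr hgw)
      (by rw [Nat.card_zpowers, Nat.card_zpowers, hgo, C.hz])).symm ▸ Subgroup.mem_zpowers z
  obtain ⟨i, hi⟩ := Subgroup.mem_zpowers_iff.mp hz'
  have hcomm : Commute (g * u * g⁻¹) (g * (w : G) * g⁻¹) :=
    (Commute.conj_iff g).mpr (show Commute u (w : G) from
      (Subgroup.mem_centralizer_singleton_iff.mp w.2).symm)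
  have hin : g * u * g⁻¹ ∈ Subgroup.centralizer ({z} : Set G) := by
    rw [Subgroup.mem_centralizer_singleton_iff, ← hi]
    exact (hcomm.zpow_right i).eq
  rw [C.hC] at hin
  have hd13 := orderOf_dvd_natCard (⟨_, hin⟩ : Subgroup.zpowers z)
  rw [Subgroup.orderOf_mk, Nat.card_zpowers, C.hz,
    ← isConj_orderOf (isConj_iff.mpr ⟨g, rfl⟩)] at hd13
  exact ((Nat.dvd_prime (by norm_num)).mp hd13).elim (fun h => hu1 (orderOf_eq_one_iff.mp h)) hu

/-- A 3-subgroup of the centralizer of an involution divides the value of `a`. -/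
theorem Chars.three_part (C : Chars z) (hcard : Nat.card G = 5616) {u : G} (hu : orderOf u = 2)
    {A : ℤ} (ha : C.a.1 u = (A : ℂ)) {k : ℕ}
    (hk : 3 ^ k ∣ Nat.card (Subgroup.centralizer ({u} : Set G))) : (3 : ℤ) ^ k ∣ A := by
  classical
  have : Fact (Nat.Prime 3) := ⟨Nat.prime_three⟩
  obtain ⟨R, hR⟩ := Sylow.exists_subgroup_card_pow_prime 3 hk
  set R' := R.map (Subgroup.centralizer ({u} : Set G)).subtype with hR'
  have hR'c : Nat.card R' = 3 ^ k := by rw [hR', Subgroup.card_subtype, hR]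
  have huc : u ∈ Subgroup.centralizer (R' : Set G) := by
    rw [Subgroup.mem_centralizer_iff]
    rintro _ ⟨r, -, rfl⟩
    exact Subgroup.mem_centralizer_singleton_iff.mp r.2
  obtain ⟨n, ρ, -, e⟩ := C.a.2
  have h := H40.isIntegral_coset_average ρ R' (s := u) huc
  rw [Finset.sum_eq_single (1 : R'), Subgroup.coe_one, mul_one, e, ha, hR'c] at h
  · obtain ⟨m, hm⟩ := exists_int_of_average (k := 3 ^ k) (N := (A : ℚ)) (pow_ne_zero k (by norm_num))
      h (by push_cast; rfl)
    exact ⟨m, by exact_mod_cast hm⟩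
  · intro r _ hr
    rw [e]
    refine C.a_eq_zero hcard ?_
    have h3 : orderOf (r : G) ∣ 3 ^ k := by
      rw [← hR'c, Subgroup.orderOf_coe]; exact orderOf_dvd_natCard r
    obtain ⟨j, -, hj⟩ := (Nat.dvd_prime_pow Nat.prime_three).mp h3
    have hj0 : j ≠ 0 := fun h0 => hr (Subtype.ext (orderOf_eq_one_iff.mp (by rw [hj, h0, pow_zero])))
    have hc : Commute u (r : G) := (Subgroup.mem_centralizer_iff.mp huc r r.2).symm
    rw [hc.orderOf_mul_eq_mul_orderOf_of_coprime (by
      rw [hu, hj]; exact Nat.Coprime.pow_right j (by norm_num)), hj]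
    exact dvd_mul_of_dvd_right (dvd_pow_self 3 hj0) _
  · simp

variable [IsSimpleGroup G]

theorem Chars.involution_values (C : Chars z) (hG : ¬ IsMulCommutative G)
    (hcard : Nat.card G = 5616) {u : G} (hu : orderOf u = 2) :
    C.a.1 u = 3 ∧ C.b.1 u = 4 ∧ Nat.card (Subgroup.centralizer ({u} : Set G)) = 48 := by
  obtain ⟨A, ha, hA4, hA⟩ := SmallOrders.exists_value_involution hG hu C.a 27 C.ha1
  obtain ⟨B, hb, hB4, hB⟩ := SmallOrders.exists_value_involution hG hu C.b 12 C.hb1
  have heq := C.involution_equation hu ha hb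
  have hA' := abs_lt.mp (hA C.hao)
  have hB' := abs_lt.mp (hB C.hbo)
  push_cast at hA4 hA' hB4 hB'
  have hbd := C.single_bound (u := u) (by omega) (by omega) ha hb
  have hc := C.card_centralizer_dvd hcard (u := u)
    (fun h => by rw [h, orderOf_one] at hu; omega) (by omega)
  have hc432 := Nat.le_of_dvd (by norm_num) hc
  set c := Nat.card (Subgroup.centralizer ({u} : Set G))
  rcases equation_solutions A (Finset.mem_Icc.mpr ⟨by omega, by omega⟩) B
      (Finset.mem_Icc.mpr ⟨by omega, by omega⟩) hA4 hB4 heq with ⟨rfl, rfl⟩ | ⟨rfl, rfl⟩ | h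
  · refine ⟨by rw [ha]; norm_num, by rw [hb]; norm_num, ?_⟩
    have h9 : ¬ 9 ∣ c := fun h => by
      have := C.three_part hcard hu ha (k := 2) h
      norm_num at this
    have hall : ∀ c ∈ Nat.divisors 432, 26 ≤ c → ¬ 9 ∣ c → c = 48 := by decide +kernel
    exact hall c (Nat.mem_divisors.mpr ⟨hc, by norm_num⟩) (by norm_num at hbd; omega) h9
  · exfalso
    norm_num at hbd
    have hall : ∀ c ∈ Nat.divisors 432, 338 ≤ c → 27 ∣ c := by decide +kernel
    have h27 := hall c (Nat.mem_divisors.mpr ⟨hc, by norm_num⟩) (by omega)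
    have := C.three_part hcard hu ha (k := 3) h27
    norm_num at this
  · exfalso
    omega

theorem Chars.involutions_conj (C : Chars z) (hG : ¬ IsMulCommutative G)
    (hcard : Nat.card G = 5616) {u v : G} (hu : orderOf u = 2) (hv : orderOf v = 2) :
    IsConj u v := by
  by_contra hnc
  obtain ⟨ha, hb, hc⟩ := C.involution_values hG hcard hu
  obtain ⟨ha', hb', hc'⟩ := C.involution_values hG hcard hv
  have := C.pair_bound (u := u) (v := v) (by omega) (by omega) (by omega) (by omega) hnc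
    (fun h => hnc h.symm) (A := 3) (B := 4) (A' := 3) (B' := 4) (by rw [ha]; norm_num)
    (by rw [hb]; norm_num) (by rw [ha']; norm_num) (by rw [hb']; norm_num) 1 1
  rw [hc, hc'] at this
  norm_num at this

/-- What the character table gives on the involutions. -/
structure Facts (C : Chars z) : Prop where
  hcard : Nat.card G = 5616
  hG : ¬ IsMulCommutative G
  one_class : ∀ u v : G, orderOf u = 2 → orderOf v = 2 → IsConj u v
  va : ∀ u : G, orderOf u = 2 → C.a.1 u = 3
  vb : ∀ u : G, orderOf u = 2 → C.b.1 u = 4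
  card_cent : ∀ u : G, orderOf u = 2 → Nat.card (Subgroup.centralizer ({u} : Set G)) = 48

theorem exists_facts (hG : ¬ IsMulCommutative G) (hcard : Nat.card G = 5616) :
    ∃ (z : G) (C : Chars z), Facts C := by
  obtain ⟨z, ⟨C⟩⟩ := exists_chars hG hcard
  exact ⟨z, C, hcard, hG, fun u v hu hv => C.involutions_conj hG hcard hu hv,
    fun u hu => (C.involution_values hG hcard hu).1,
    fun u hu => (C.involution_values hG hcard hu).2.1,
    fun u hu => (C.involution_values hG hcard hu).2.2⟩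

end Cfsg.Agent.H28.L33
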