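import Cfsg.Agent.H28.SmallOrders.L33.Involutions
import Cfsg.Agent.H20.Generation
import Cfsg.Agent.H22.Fusion

/-!
# The elements of order three against the 2-subgroups in order 5616
-/

set_option autoImplicit false
set_option synthInstance.maxSize 1024

namespace Cfsg.Agent.H28.L33

open Finset
open scoped ComplexConjugate

variable {G : Type*} [Group G] [Fintype G] [IsSimpleGroup G] {z : G} {C : Chars z}

/-- No element of order four commutes with an element of order three. -/
theorem Facts.no_twelve (F : Facts C) {g y : G} (hg : orderOf g = 4) (hy : orderOf y = 3)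
    (hgy : Commute g y) : False := by
  have hs : orderOf (g * g) = 2 := by
    rw [← sq, orderOf_pow' g two_ne_zero, hg]; norm_num
  obtain ⟨A, k, hA, hA2⟩ := value_order_four F.hG hg C.a (C.haR g) 27 C.ha1 3
    (by rw [F.va _ hs]; norm_num)
  obtain ⟨B, l, hB, hB2⟩ := value_order_four F.hG hg C.b (C.hbR g) 12 C.hb1 4
    (by rw [F.vb _ hs]; norm_num)
  have hz3 : ∀ w : G, orderOf w = 3 → Commute g w → C.a.1 (g * w) = 0 := fun w hw hc => by
    refine C.a_eq_zero F.hcard ?_
    rw [hc.orderOf_mul_eq_mul_orderOf_of_coprime (by rw [hg, hw]; norm_num), hw]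
    exact dvd_mul_left 3 _
  have hy2 : orderOf (y ^ 2) = 3 := by rw [orderOf_pow' y two_ne_zero, hy]; norm_num
  have hav := average_three C.a hy hgy
  rw [hA, hz3 y hy hgy, hz3 (y ^ 2) hy2 (hgy.pow_right 2), add_zero, add_zero] at hav
  obtain ⟨m, hm⟩ := exists_int_of_average (k := 3) (N := (A : ℚ)) (by norm_num) hav
    (by push_cast; ring)
  have hm' : A = 3 * m := by exact_mod_cast hm
  have hle : Subgroup.centralizer ({g} : Set G) ≤ Subgroup.centralizer ({g * g} : Set G) := by
    intro x hx
    rw [Subgroup.mem_centralizer_singleton_iff] at hx ⊢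
    rw [← mul_assoc, hx, mul_assoc, hx, ← mul_assoc]
  have hc48 : Nat.card (Subgroup.centralizer ({g} : Set G)) ≤ 48 :=
    (Subgroup.card_le_of_le hle).trans (F.card_cent _ hs).le
  have hsb := C.single_bound (u := g) (by omega) (by omega) hA hB
  have hA6 : -6 ≤ A ∧ A ≤ 6 := by
    constructor <;> nlinarith [sq_nonneg B, sq_nonneg (1 + A - B)]
  have hA3 : A = 3 := by omega
  subst hA3
  have hB6 : -6 ≤ B ∧ B ≤ 6 := by
    constructor <;> nlinarith [sq_nonneg (1 + 3 - B)]
  have hB4 : B = 4 := by
    rcases (show B = -4 ∨ B = 0 ∨ B = 4 by omega) with h | h | h <;> subst h <;> norm_num at hsb ⊢ <;>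
      omega
  subst hB4
  have hnc : ¬ IsConj g (g * g) := fun h => by
    have := isConj_orderOf h; omega
  have hpb := C.pair_bound (u := g) (v := g * g) (by omega) (by omega) (by omega) (by omega) hnc
    (fun h => hnc h.symm) hA hB (A' := 3) (B' := 4) (by rw [F.va _ hs]; norm_num)
    (by rw [F.vb _ hs]; norm_num) 1 1
  rw [F.card_cent _ hs] at hpb
  norm_num at hpb
  omega

/-- A Sylow 2-subgroup centralizes no element of order three. -/
theorem Facts.not_sylow_le (F : Facts C) (T : Sylow 2 G) {y : G} (hy : orderOf y = 3)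
    (hT : (T : Subgroup G) ≤ Subgroup.centralizer ({y} : Set G)) : False := by
  classical
  have : Fact (Nat.Prime 2) := ⟨Nat.prime_two⟩
  have hT16 : Nat.card (T : Subgroup G) = 16 := by
    simpa using H30.card_sylow_subgroup (a := 4) (m := 351) T (by rw [F.hcard]; norm_num)
      (by norm_num)
  have hsq : ∀ x ∈ (T : Subgroup G), x * x = 1 := by
    intro x hx
    obtain ⟨j, hj⟩ := IsPGroup.iff_orderOf.mp T.2 ⟨x, hx⟩
    rw [Subgroup.orderOf_mk] at hj
    by_contra hne
    have hj2 : 2 ≤ j := by
      by_contra h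
      refine hne ?_
      rw [← sq, ← orderOf_dvd_iff_pow_eq_one, hj]
      exact (pow_dvd_pow 2 (by omega : j ≤ 1)).trans (by norm_num)
    refine F.no_twelve (g := x ^ 2 ^ (j - 2)) ?_ hy ?_
    · rw [orderOf_pow' x (by positivity), hj,
        Nat.gcd_eq_right (pow_dvd_pow 2 (Nat.sub_le j 2)), Nat.pow_div (Nat.sub_le j 2) two_pos,
        show j - (j - 2) = 2 by omega]
      norm_num
    · exact Commute.pow_left (Subgroup.mem_centralizer_singleton_iff.mp (hT hx)) _
  have hab : ∀ x ∈ (T : Subgroup G), ∀ w ∈ (T : Subgroup G), w * x = x * w := by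
    intro x hx w hw
    have h := hsq _ (mul_mem hx hw)
    have hx' : x⁻¹ = x := inv_eq_of_mul_eq_one_right (hsq x hx)
    have hw' : w⁻¹ = w := inv_eq_of_mul_eq_one_right (hsq w hw)
    have h' := inv_eq_of_mul_eq_one_right h
    rwa [mul_inv_rev, hx', hw'] at h'
  have hcen : ∀ x ∈ (T : Subgroup G), x ∈ Subgroup.centralizer ((T : Subgroup G) : Set G) :=
    fun x hx => Subgroup.mem_centralizer_iff.mpr fun w hw => hab x hx w hw
  set N := Subgroup.normalizer ((T : Subgroup G) : Set G) with hN
  let φ : N →* MulAut (T : Subgroup G) := (T : Subgroup G).normalizerMonoidHom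
  obtain ⟨s, hs⟩ := exists_prime_orderOf_dvd_card' (G := (T : Subgroup G)) 2
    (by rw [hT16]; norm_num)
  have hs1 : s ≠ 1 := fun h => by rw [h, orderOf_one] at hs; omega
  have horb : MulAction.orbit φ.range s = {w : (T : Subgroup G) | w ≠ 1} := by
    ext w
    constructor
    · rintro ⟨⟨f, hf⟩, rfl⟩ h
      exact hs1 ((map_eq_one_iff f f.injective).mp h)
    · intro hw
      have hs2 : orderOf (s : G) = 2 := by rw [Subgroup.orderOf_coe, hs]
      have hw2 : orderOf (w : G) = 2 := by
        refine orderOf_eq_prime ?_ (fun h => hw (Subtype.ext h))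
        rw [sq]; exact hsq _ w.2
      obtain ⟨g, hg⟩ := isConj_iff.mp (F.one_class _ _ hs2 hw2)
      obtain ⟨n, hn, hn'⟩ := H22.burnside_fusion_central T (hcen _ s.2) g
        (by rw [hg]; exact hcen _ w.2)
      refine ⟨⟨φ ⟨n, hn⟩, ⟨⟨n, hn⟩, rfl⟩⟩, Subtype.ext ?_⟩
      show n * (s : G) * n⁻¹ = (w : G)
      rw [hn', hg]
  have hcard15 : Nat.card (MulAction.orbit φ.range s) = 15 := by
    rw [horb]
    change Nat.card {w : (T : Subgroup G) // w ≠ 1} = 15
    rw [Nat.card_eq_fintype_card, Fintype.card_subtype_compl, Fintype.card_subtype_eq,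
      ← Nat.card_eq_fintype_card, hT16]
  have h15 : 15 ∣ Nat.card φ.range := by
    rw [← hcard15]
    exact ⟨_, (by
      rw [Nat.card_eq_fintype_card, Nat.card_eq_fintype_card, Nat.card_eq_fintype_card]
      exact (MulAction.card_orbit_mul_card_stabilizer_eq_card_group φ.range s).symm :
        Nat.card φ.range = Nat.card (MulAction.orbit φ.range s) *
          Nat.card (MulAction.stabilizer φ.range s))⟩
  have hd := (h15.trans ((Subgroup.card_range_dvd φ).trans N.card_subgroup_dvd_card))
  rw [F.hcard] at hd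
  norm_num at hd

/-- No four-group centralizes an element of order three. -/
theorem Facts.no_four (F : Facts C) (V : Subgroup G) (hV : Nat.card V = 4)
    (hV2 : ∀ v ∈ V, v * v = 1) {y : G} (hy : orderOf y = 3)
    (hVy : V ≤ Subgroup.centralizer ({y} : Set G)) : False := by
  classical
  have : Fact (Nat.Prime 3) := ⟨Nat.prime_three⟩
  have : Fact (Nat.Prime 2) := ⟨Nat.prime_two⟩
  have hy1 : y ≠ 1 := fun h => by rw [h, orderOf_one] at hy; omega
  set X := Subgroup.centralizer ({y} : Set G) with hX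
  have hyX : y ∈ X := Subgroup.mem_centralizer_singleton_iff.mpr rfl
  have hc432 := C.card_centralizer_dvd F.hcard hy1 (by omega)
  have h16 : ¬ 16 ∣ Nat.card X := fun h => by
    obtain ⟨K, hK⟩ := Sylow.exists_subgroup_card_pow_prime 2 (n := 4) (G := X) (by simpa using h)
    have hKG : IsPGroup 2 (K.map X.subtype) :=
      IsPGroup.of_card (n := 4) (by rw [Subgroup.card_subtype, hK])
    obtain ⟨T, hT⟩ := hKG.exists_le_sylow
    have hT16 : Nat.card (T : Subgroup G) = 16 := by
      simpa using H30.card_sylow_subgroup (a := 4) (m := 351) T (by rw [F.hcard]; norm_num)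
        (by norm_num)
    have he := Subgroup.eq_of_le_of_card_ge hT (by rw [Subgroup.card_subtype, hK, hT16]; norm_num)
    exact F.not_sylow_le T hy (he ▸ Subgroup.map_subtype_le K)
  have hinv : ∀ v ∈ V, v ≠ 1 → orderOf v = 2 ∧ Commute v y := fun v hv hv1 =>
    ⟨orderOf_eq_prime (by rw [sq]; exact hV2 v hv) hv1,
      Subgroup.mem_centralizer_singleton_iff.mp (hVy hv)⟩
  have hV12 : 12 ∣ Nat.card X := by
    refine Nat.Coprime.mul_dvd_of_dvd_of_dvd (by norm_num : Nat.Coprime 4 3) ?_ ?_
    · rw [← hV]; exact Subgroup.card_dvd_of_le hVy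
    · rw [← hy, ← Nat.card_zpowers]; exact Subgroup.card_dvd_of_le (Subgroup.zpowers_le.mpr hyX)
  -- the values of `b`
  have hy2 : y ^ 2 = y⁻¹ := by
    refine eq_inv_of_mul_eq_one_left ?_
    rw [← pow_succ]
    simpa [hy] using pow_orderOf_eq_one y
  have hb1 : C.b.1 1 = 12 := by rw [C.hb1]; norm_num
  obtain ⟨β, hβ, hβ3⟩ : ∃ β : ℤ, C.b.1 y = (β : ℂ) ∧ 3 ∣ β := by
    have hav := average_three C.b hy (Commute.one_left y)
    rw [one_mul, one_mul, hy2, real_inv C.b C.hbR, hb1] at hav
    have hre : C.b.1 y = ((C.b.1 y).re : ℂ) := Complex.ext rfl (by simp [C.hbR y])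
    have hint : IsIntegral ℤ (C.b.1 y) := by
      obtain ⟨n, ρ, -, e⟩ := C.b.2
      rw [← e]; exact H25.isIntegral_char ρ y
    -- `2 b(y) = 3 m - 12`
    obtain ⟨q, hq⟩ : ∃ q : ℚ, C.b.1 y = (q : ℂ) := by
      obtain ⟨n, ρ, -, e⟩ := C.b.2
      obtain ⟨μ, hμ, hsum⟩ := H25.exists_char_eq_sum_roots ρ y
      let δ : Fin (Module.finrank ℂ (Fin n → ℂ)) → ℚ := fun i => if μ i = 1 then 1 else -1 / 2
      refine ⟨∑ i, δ i, ?_⟩
      have hroot : ∀ i, ((μ i).re : ℝ) = (δ i : ℝ) := by
        intro i
        have h3 : μ i ^ 3 = 1 := hy ▸ hμ i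
        by_cases h1 : μ i = 1
        · simp [δ, h1]
        · have h2 : μ i ^ 2 + μ i + 1 = 0 := by
            refine (mul_eq_zero.mp ?_).resolve_left (sub_ne_zero.mpr h1)
            linear_combination h3
          have him := congrArg Complex.im h2
          have hr := congrArg Complex.re h2
          simp [sq] at him hr
          have : (μ i).re = -1 / 2 := by
            by_contra hne
            have him0 : (μ i).im = 0 := by
              by_contra h0
              apply hne
              have h2' : ((μ i).re * 2 + 1) * (μ i).im = 0 := by linarith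
              linarith [(mul_eq_zero.mp h2').resolve_right h0]
            rw [him0] at hr
            nlinarith [sq_nonneg ((μ i).re + 1 / 2)]
          simp [δ, h1, this]
      rw [hre, ← e, hsum, Complex.re_sum, Finset.sum_congr rfl fun i _ => hroot i]
      push_cast
      rfl
    rw [hq] at hint
    obtain ⟨β, rfl⟩ := H43.exists_int_of_isIntegral hint
    obtain ⟨m, hm⟩ := exists_int_of_average (k := 3) (N := (12 + 2 * (β : ℚ))) (by norm_num) hav
      (by rw [hq]; push_cast; ring)
    have hm' : 12 + 2 * β = 3 * m := by exact_mod_cast hm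
    exact ⟨β, by rw [hq]; push_cast; rfl, by omega⟩
  have hw : ∀ v ∈ V, v ≠ 1 → C.b.1 (y * v) = 1 := by
    intro v hv hv1
    obtain ⟨hv2, hvy⟩ := hinv v hv hv1
    have ho : orderOf (v * y) = 6 := by
      rw [hvy.orderOf_mul_eq_mul_orderOf_of_coprime (by rw [hv2, hy]; norm_num), hv2, hy]
    have hav := average_three C.b hy hvy
    have hinv' : v * y ^ 2 = (v * y)⁻¹ := by
      rw [mul_inv_rev, hy2, inv_eq_of_mul_eq_one_right (hV2 v hv)]
      exact hvy.inv_right.eq
    rw [hinv', real_inv C.b C.hbR, F.vb v hv2] at hav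
    have hint : IsIntegral ℤ (C.b.1 (v * y)) := by
      obtain ⟨n, ρ, -, e⟩ := C.b.2
      rw [← e]; exact H25.isIntegral_char ρ _
    -- the value is rational
    obtain ⟨β', hβ', hmod⟩ : ∃ β' : ℤ, C.b.1 (v * y) = (β' : ℂ) ∧ (3 : ℤ) ∣ 4 + 2 * β' := by
      obtain ⟨n, ρ, -, e⟩ := C.b.2
      have h6 := H40.isIntegral_coset_average ρ (Subgroup.zpowers y) (s := v) (by
        rw [Subgroup.mem_centralizer_iff]
        intro x hx
        obtain ⟨i, rfl⟩ := Subgroup.mem_zpowers_iff.mp hx
        exact ((hvy.zpow_right i).symm).eq)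
      obtain ⟨q, hq⟩ : ∃ q : ℚ, C.b.1 (v * y) = (q : ℂ) := by
        obtain ⟨μ, hμ, hsum⟩ := H25.exists_char_eq_sum_roots ρ (v * y)
        let δ : Fin (Module.finrank ℂ (Fin n → ℂ)) → ℚ := fun i =>
          if μ i = 1 then 1 else if μ i = -1 then -1 else if μ i ^ 3 = 1 then -1 / 2 else 1 / 2
        refine ⟨∑ i, δ i, ?_⟩
        have hroot : ∀ i, ((μ i).re : ℝ) = (δ i : ℝ) := by
          intro i
          have h6 : μ i ^ 6 = 1 := ho ▸ hμ i
          by_cases h1 : μ i = 1
          · simp [δ, h1]
          by_cases h1' : μ i = -1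
          · simp [δ, h1']
            norm_num
          by_cases h3 : μ i ^ 3 = 1
          · have h2 : μ i ^ 2 + μ i + 1 = 0 := by
              refine (mul_eq_zero.mp ?_).resolve_left (sub_ne_zero.mpr h1)
              linear_combination h3
            have : (μ i).re = -1 / 2 := by
              have him := congrArg Complex.im h2
              have hr := congrArg Complex.re h2
              simp [sq] at him hr
              by_contra hne
              have him0 : (μ i).im = 0 := by
                by_contra h0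
                apply hne
                have h2' : ((μ i).re * 2 + 1) * (μ i).im = 0 := by linarith
                linarith [(mul_eq_zero.mp h2').resolve_right h0]
              rw [him0] at hr
              nlinarith [sq_nonneg ((μ i).re + 1 / 2)]
            simp [δ, h1, h1', h3, this]
          · have h3' : μ i ^ 3 + 1 = 0 := by
              refine (mul_eq_zero.mp ?_).resolve_left (sub_ne_zero.mpr h3)
              linear_combination h6
            have h2 : μ i ^ 2 - μ i + 1 = 0 := by
              refine (mul_eq_zero.mp ?_).resolve_left (fun h => h1' (eq_neg_of_add_eq_zero_left h))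
              linear_combination h3'
            have : (μ i).re = 1 / 2 := by
              have him := congrArg Complex.im h2
              have hr := congrArg Complex.re h2
              simp [sq] at him hr
              by_contra hne
              have him0 : (μ i).im = 0 := by
                by_contra h0
                apply hne
                have h2' : ((μ i).re * 2 - 1) * (μ i).im = 0 := by linarith
                linarith [(mul_eq_zero.mp h2').resolve_right h0]
              rw [him0] at hr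
              nlinarith [sq_nonneg ((μ i).re - 1 / 2)]
            simp [δ, h1, h1', h3, this]
        have hre : C.b.1 (v * y) = ((C.b.1 (v * y)).re : ℂ) :=
          Complex.ext rfl (by simp [C.hbR (v * y)])
        rw [hre, ← e, hsum, Complex.re_sum, Finset.sum_congr rfl fun i _ => hroot i]
        push_cast
        rfl
      rw [hq] at hint
      obtain ⟨β', rfl⟩ := H43.exists_int_of_isIntegral hint
      obtain ⟨m, hm⟩ := exists_int_of_average (k := 3) (N := (4 + 2 * (β' : ℚ))) (by norm_num) hav
        (by rw [hq]; push_cast; ring)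
      have hm' : 4 + 2 * β' = 3 * m := by exact_mod_cast hm
      exact ⟨β', by rw [hq]; push_cast; rfl, ⟨m, hm'⟩⟩
    have ha0 : C.a.1 (v * y) = ((0 : ℤ) : ℂ) := by
      rw [C.a_eq_zero F.hcard (by rw [ho]; norm_num), Int.cast_zero]
    have hbd := C.single_bound (u := v * y) (by omega) (by omega) ha0 hβ'
    have hle : Subgroup.centralizer ({v * y} : Set G) ≤
        Subgroup.centralizer ({v} : Set G) ⊓ X := by
      intro x hx
      have hx' : Commute x (v * y) := Subgroup.mem_centralizer_singleton_iff.mp hx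
      have e3 : (v * y) ^ 3 = v := by
        rw [hvy.mul_pow, show y ^ 3 = 1 by rw [← hy, pow_orderOf_eq_one], mul_one, pow_succ, sq,
          hV2 v hv, one_mul]
      have e4 : (v * y) ^ 4 = y := by
        rw [hvy.mul_pow, show y ^ 4 = y by rw [pow_succ, ← hy, pow_orderOf_eq_one, one_mul],
          show v ^ 4 = 1 by rw [show (4 : ℕ) = 2 * 2 from rfl, pow_mul, sq v, hV2 v hv, one_pow],
          one_mul]
      refine ⟨Subgroup.mem_centralizer_singleton_iff.mpr ?_,
        Subgroup.mem_centralizer_singleton_iff.mpr ?_⟩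
      · exact (e3 ▸ hx'.pow_right 3).eq
      · exact (e4 ▸ hx'.pow_right 4).eq
    set c := Nat.card (Subgroup.centralizer ({v * y} : Set G))
    have hc48 : c ∣ 48 := by
      rw [← F.card_cent v hv2]; exact Subgroup.card_dvd_of_le (hle.trans inf_le_left)
    have hcX : c ∣ Nat.card X := Subgroup.card_dvd_of_le (hle.trans inf_le_right)
    have hc24 : c ≤ 24 := by
      have hall : ∀ d ∈ Nat.divisors 48, d ≤ 24 ∨ 16 ∣ d := by decide +kernel
      exact (hall c (Nat.mem_divisors.mpr ⟨hc48, by norm_num⟩)).resolve_right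
        fun h => h16 (h.trans hcX)
    have hb7 : -3 ≤ β' ∧ β' ≤ 5 := by
      constructor <;> nlinarith [sq_nonneg (1 - β'), sq_nonneg β']
    have hone : β' = 1 := by
      rcases (show β' = -2 ∨ β' = 1 ∨ β' = 4 by omega) with h | h | h <;> subst h <;>
        norm_num at hbd ⊢ <;> omega
    rw [← hvy.eq, hβ', hone, Int.cast_one]
  -- the average over `V`
  have hcV : y ∈ Subgroup.centralizer (V : Set G) :=
    Subgroup.mem_centralizer_iff.mpr fun v hv => Subgroup.mem_centralizer_singleton_iff.mp (hVy hv)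
  have hsumV : ∑ t : V, C.b.1 (y * t) = (β : ℂ) + 3 := by
    rw [← Finset.add_sum_erase _ _ (Finset.mem_univ (1 : V)), Subgroup.coe_one, mul_one, hβ,
      Finset.sum_congr rfl ((fun t ht => hw _ t.2 fun h => (ne_of_mem_erase ht) (Subtype.ext h)) :
        ∀ t ∈ (Finset.univ : Finset V).erase 1, C.b.1 (y * (t : G)) = 1),
      Finset.sum_const, Finset.card_erase_of_mem (Finset.mem_univ _), Finset.card_univ,
      ← Nat.card_eq_fintype_card, hV]
    norm_num
  have hmod4 : (4 : ℤ) ∣ β + 3 := by
    obtain ⟨n, ρ, -, e⟩ := C.b.2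
    have h := H40.isIntegral_coset_average ρ V (s := y) hcV
    rw [e, hsumV, hV] at h
    obtain ⟨m, hm⟩ := exists_int_of_average (k := 4) (N := ((β : ℚ) + 3)) (by norm_num) h
      (by push_cast; ring)
    exact ⟨m, by exact_mod_cast hm⟩
  have ha0 : C.a.1 y = ((0 : ℤ) : ℂ) := by
    rw [C.a_eq_zero F.hcard (by rw [hy]), Int.cast_zero]
  have hbd := C.single_bound (u := y) (by omega) (by omega) ha0 hβ
  rw [← hX] at hbd
  set c := Nat.card X with hc
  have hc216 : c ≤ 216 := by
    have hall : ∀ d ∈ Nat.divisors 432, d ≤ 216 ∨ 16 ∣ d := by decide +kernel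
    exact (hall c (Nat.mem_divisors.mpr ⟨hc432, by norm_num⟩)).resolve_right h16
  have hβr : -9 ≤ β ∧ β ≤ 9 := by
    constructor <;> nlinarith [sq_nonneg β, sq_nonneg (1 - β)]
  have hβ3' : β = -3 := by
    rcases (show β = -3 ∨ β = 9 by omega) with h | h
    · exact h
    · subst h; norm_num at hbd; omega
  subst hβ3'
  have hVne : ∃ v ∈ V, v ≠ 1 := by
    rcases Subgroup.bot_or_exists_ne_one V with h | h
    · rw [h, Subgroup.card_bot] at hV; omega
    · exact h
  obtain ⟨v₀, hv₀, hv₀1⟩ := hVne
  obtain ⟨hv₀2, -⟩ := hinv v₀ hv₀ hv₀1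
  have hnc : ¬ IsConj v₀ y := fun h => by
    have := isConj_orderOf h; omega
  have hpb := C.pair_bound (u := v₀) (v := y) (by omega) (by omega) (by omega) (by omega) hnc
    (fun h => hnc h.symm) (A := 3) (B := 4) (by rw [F.va _ hv₀2]; norm_num)
    (by rw [F.vb _ hv₀2]; norm_num) ha0 hβ 2 (-1)
  rw [F.card_cent _ hv₀2, ← hX, ← hc] at hpb
  norm_num at hpb
  have h108 : 108 ∣ c := by
    have hall : ∀ d ∈ Nat.divisors 432, 12 ∣ d → ¬ 16 ∣ d → 80 ≤ d → 108 ∣ d := by decide +kernel
    exact hall c (Nat.mem_divisors.mpr ⟨hc432, by norm_num⟩) hV12 h16 (by omega)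
  -- a normal 3-subgroup of order at least nine
  have hP : ∀ P : Sylow 3 X, Nat.card (P : Subgroup X) = 27 := by
    intro P
    have hall : ∀ d ∈ Nat.divisors 432, 108 ∣ d → ∃ m < 17, d = 3 ^ 3 * m ∧ ¬ 3 ∣ m := by
      decide +kernel
    obtain ⟨m, -, hm, hm3⟩ := hall c (Nat.mem_divisors.mpr ⟨hc432, by norm_num⟩) h108
    simpa using H30.card_sylow_subgroup (a := 3) (m := m) P hm hm3
  have hn4 : Nat.card (Sylow 3 X) ≤ 4 := by
    have hall : ∀ d ∈ Nat.divisors 432, 108 ∣ d → ¬ 16 ∣ d → ∀ n < 9, n ∣ d / 27 → n % 3 = 1 →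
        n ≤ 4 := by decide +kernel
    have P : Sylow 3 X := default
    have hi : Nat.card (Sylow 3 X) ∣ c / 27 := by
      have := P.card_dvd_index
      have h2 := (P : Subgroup X).index_mul_card
      rw [hP P, ← hc] at h2
      rwa [show c / 27 = (P : Subgroup X).index by rw [← h2, Nat.mul_div_cancel _ (by norm_num)]]
    refine hall c (Nat.mem_divisors.mpr ⟨hc432, by norm_num⟩) h108 h16 _ ?_ hi ?_
    · have hle := Nat.le_of_dvd (Nat.div_pos (Nat.le_of_dvd (Nat.card_pos) (by
          exact (dvd_trans (by norm_num) h108 : 27 ∣ c))) (by norm_num)) hi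
      omega
    · have := card_sylow_modEq_one 3 X
      rwa [Nat.ModEq] at this
  set M : Subgroup X := ⨅ P : Sylow 3 X, (P : Subgroup X) with hM
  have hMn : M.Normal := by
    refine ⟨fun m hm g => ?_⟩
    rw [hM, Subgroup.mem_iInf] at hm ⊢
    intro P
    have := hm (g⁻¹ • P)
    rw [H22.mem_smul_sylow, inv_inv] at this
    exact this
  have hyM : (⟨y, hyX⟩ : X) ∈ M := by
    rw [hM, Subgroup.mem_iInf]
    intro P
    have hK : IsPGroup 3 (Subgroup.zpowers (⟨y, hyX⟩ : X)) :=
      IsPGroup.of_card (n := 1) (by rw [Nat.card_zpowers, Subgroup.orderOf_mk, hy, pow_one])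
    obtain ⟨Q, hQ⟩ := hK.exists_le_sylow
    obtain ⟨g, hg⟩ := MulAction.exists_smul_eq X Q P
    rw [← hg, H22.mem_smul_sylow]
    have hcomm : g⁻¹ * (⟨y, hyX⟩ : X) * g = ⟨y, hyX⟩ := by
      refine Subtype.ext ?_
      have := Subgroup.mem_centralizer_singleton_iff.mp g.2
      show (g : G)⁻¹ * y * (g : G) = y
      rw [mul_assoc, ← this, ← mul_assoc, inv_mul_cancel, one_mul]
    exact hQ (by rw [hcomm]; exact Subgroup.mem_zpowers _)
  have hM9 : 9 ∣ Nat.card M := by
    let P₀ : Sylow 3 X := default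
    let f : (P₀ : Subgroup X) →* Equiv.Perm (Sylow 3 X) :=
      (MulAction.toPermHom X (Sylow 3 X)).comp (P₀ : Subgroup X).subtype
    have hker : f.ker.map (P₀ : Subgroup X).subtype ≤ M := by
      rintro _ ⟨m, hm, rfl⟩
      rw [hM, Subgroup.mem_iInf]
      intro P
      have hfix : (m : X) • P = P := Equiv.Perm.ext_iff.mp (MonoidHom.mem_ker.mp hm) P
      have hmN : (m : X) ∈ Subgroup.normalizer ((P : Subgroup X) : Set X) :=
        Sylow.smul_eq_iff_mem_normalizer.mp hfix
      have h := IsPGroup.inf_normalizer_sylow P₀.2 P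
      exact ((le_of_eq h) ⟨m.2, hmN⟩).2
    have h1 := f.ker.index_mul_card
    rw [hP P₀, Subgroup.index_ker] at h1
    have h24 : Nat.card f.range ∣ 24 := by
      refine (Subgroup.card_subgroup_dvd_card _).trans ?_
      rw [Nat.card_perm]
      exact Nat.factorial_dvd_factorial hn4
    have h3 : Nat.card f.range ∣ 3 :=
      (Nat.dvd_gcd ⟨_, h1.symm⟩ h24).trans (show Nat.gcd 27 24 = 3 by norm_num).dvd
    have h9 : 9 ∣ Nat.card f.ker := by
      rcases (Nat.dvd_prime Nat.prime_three).mp h3 with h | h <;> rw [h] at h1 <;>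
        exact ⟨Nat.card f.ker / 9, by omega⟩
    have hd := Subgroup.card_dvd_of_le hker
    rw [Subgroup.card_subtype] at hd
    exact h9.trans hd
  set M' := M.map X.subtype with hM'
  have hM'3 : IsPGroup 3 M' := by
    refine IsPGroup.map ?_ _
    let P₀ : Sylow 3 X := default
    exact P₀.2.to_le (iInf_le _ P₀)
  have : IsMulCommutative V := ⟨⟨fun a b => Subtype.ext (by
    have h := inv_eq_of_mul_eq_one_right (hV2 _ (mul_mem a.2 b.2))
    rw [mul_inv_rev, inv_eq_of_mul_eq_one_right (hV2 _ a.2),
      inv_eq_of_mul_eq_one_right (hV2 _ b.2)] at h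
    exact h.symm)⟩⟩
  have hVc : ¬ IsCyclic V := by
    intro h
    obtain ⟨g, hg⟩ := IsCyclic.exists_ofOrder_eq_natCard (α := V)
    have h2 : orderOf g ∣ 2 := orderOf_dvd_of_pow_eq_one (by
      rw [sq]; exact Subtype.ext (hV2 _ g.2))
    rw [hg, hV] at h2
    norm_num at h2
  have hVN : V ≤ Subgroup.normalizer (M' : Set G) := hVy.trans
    ((Subgroup.normal_subgroupOf_iff_le_normalizer (Subgroup.map_subtype_le M)).mp (by
      rw [Subgroup.subgroupOf, Subgroup.comap_map_eq_self_of_injective X.subtype_injective]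
      exact hMn))
  have hcop : (Nat.card V).Coprime (Nat.card M') := by
    obtain ⟨j, hj⟩ := IsPGroup.iff_card.mp hM'3
    rw [hV, hj]
    exact Nat.Coprime.pow_right j (by norm_num)
  have hle := H20.le_of_centralizers_le (H := Subgroup.zpowers y) hVc hVN hcop (fun v hv hv1 => by
    obtain ⟨hv2, hvy⟩ := hinv v hv hv1
    set J := M' ⊓ Subgroup.centralizer ({v} : Set G)
    have hJ3 : IsPGroup 3 J := hM'3.to_le inf_le_left
    obtain ⟨j, hj⟩ := IsPGroup.iff_card.mp hJ3
    have h48 : 3 ^ j ∣ 48 := by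
      rw [← hj, ← F.card_cent v hv2]; exact Subgroup.card_dvd_of_le inf_le_right
    have hj1 : j ≤ 1 := by
      by_contra h
      have := (Nat.pow_dvd_pow 3 (by omega : 2 ≤ j)).trans h48
      norm_num at this
    have hyJ : Subgroup.zpowers y ≤ J := Subgroup.zpowers_le.mpr
      ⟨⟨⟨y, hyX⟩, hyM, rfl⟩, Subgroup.mem_centralizer_singleton_iff.mpr hvy.eq.symm⟩
    exact (Subgroup.eq_of_le_of_card_ge hyJ (by
      rw [hj, Nat.card_zpowers, hy]
      calc 3 ^ j ≤ 3 ^ 1 := Nat.pow_le_pow_right (by norm_num) hj1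
        _ = 3 := by norm_num)).ge)
  have h93 : 9 ∣ 3 := by
    rw [← hy, ← Nat.card_zpowers]
    exact (hM9.trans (Subgroup.card_subtype X M).symm.dvd).trans (Subgroup.card_dvd_of_le hle)
  norm_num at h93

end Cfsg.Agent.H28.L33
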