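import Cfsg.Agent.H28.SmallOrders.L33.Centralizer
import Cfsg.Agent.H30.GLTwoThreeUnique

/-!
# The simple group of order 5616 is unique
-/

set_option autoImplicit false
set_option synthInstance.maxSize 4096

namespace Cfsg.Agent.H28.L33

theorem nonempty_mulEquiv_aut {G : Type*} [Group G] [Finite G] [IsSimpleGroup G]
    (hG : ¬ IsMulCommutative G) (hcard : Nat.card G = 5616) :
    Nonempty (G ≃* H30.PlaneThirteen.aut) := by
  have := Fintype.ofFinite G
  have : Fact (Nat.Prime 2) := ⟨Nat.prime_two⟩
  obtain ⟨z, C, F⟩ := exists_facts hG hcard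
  obtain ⟨t, ht⟩ := exists_prime_orderOf_dvd_card' (G := G) 2 (by rw [hcard]; norm_num)
  obtain ⟨e⟩ := F.centralizer_iso ht
  exact H30.GLTwoThree.nonempty_mulEquiv_aut e ht hcard

theorem not_comm {X : Type*} [Group X] [Finite X] [IsSimpleGroup X] (hX : Nat.card X = 5616) :
    ¬ IsMulCommutative X := by
  intro hc
  let _ : CommGroup X := { (inferInstance : Group X) with mul_comm := hc.is_comm.comm }
  have hp : (Nat.card X).Prime := IsSimpleGroup.prime_card
  rw [hX] at hp
  norm_num at hp

/-- Any two simple groups of order 5616 are isomorphic. -/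
theorem nonempty_mulEquiv {G H : Type*} [Group G] [Finite G] [IsSimpleGroup G] [Group H] [Finite H]
    [IsSimpleGroup H] (hG : Nat.card G = 5616) (hH : Nat.card H = 5616) : Nonempty (G ≃* H) := by
  obtain ⟨f⟩ := nonempty_mulEquiv_aut (not_comm hG) hG
  obtain ⟨f'⟩ := nonempty_mulEquiv_aut (not_comm hH) hH
  exact ⟨f.trans f'.symm⟩

end Cfsg.Agent.H28.L33
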