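import Cfsg.Agent.H26.CharFS
import Cfsg.Agent.H28.SmallOrders.Range.Opts
import Cfsg.Agent.H30.DegreeEquation

/-!
# A piece of the character table of a simple group of order 5616

The element of order thirteen gives the characters of degrees 27, 12 and four exceptional
characters of degree 16.
-/

set_option autoImplicit false
set_option synthInstance.maxSize 1024

namespace Cfsg.Agent.H28.L33

open Finset
open scoped ComplexConjugate

variable {G : Type*} [Group G] [Fintype G]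

/-- The characters visible from an element `z` of order thirteen. -/
structure Chars (z : G) where
  a : Cfsg.IrrCharacter G
  b : Cfsg.IrrCharacter G
  K : Finset (Cfsg.IrrCharacter G)
  hz : orderOf z = 13
  hC : Subgroup.centralizer ({z} : Set G) = Subgroup.zpowers z
  hN : Nat.card (Subgroup.normalizer (Subgroup.zpowers z : Set G)) = 39
  hK : K.card = 4
  hoK : H26.oneIrr G ∉ K
  haK : a ∉ K
  hbK : b ∉ K
  hab : a ≠ b
  hao : a ≠ H26.oneIrr G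
  hbo : b ≠ H26.oneIrr G
  ha1 : a.1 1 = ((27 : ℕ) : ℂ)
  hb1 : b.1 1 = ((12 : ℕ) : ℂ)
  hK1 : ∀ k ∈ K, k.1 1 = ((16 : ℕ) : ℂ)
  haR : ∀ g, (a.1 g).im = 0
  hbR : ∀ g, (b.1 g).im = 0
  hθ : ∀ u, orderOf u ≠ 1 → orderOf u ≠ 13 → ∀ k ∈ K, k.1 u = 1 + a.1 u - b.1 u
  haz : a.1 z = 1
  hbz : b.1 z = -1
  hKz : ∑ k ∈ K, k.1 z = -1
  hrest : ∀ χ, χ ≠ H26.oneIrr G → χ ≠ a → χ ≠ b → χ ∉ K → χ.1 z = 0

/-- The divisors of 5616 between 2 and 74. -/
def smallDivs : List ℕ := [2, 3, 4, 6, 8, 9, 12, 13, 16, 18, 24, 26, 27, 36, 39, 48, 52, 54, 72]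

theorem mem_smallDivs : ∀ d < 75, d ∣ 5616 → 2 ≤ d → d ∈ smallDivs := by decide +kernel

/-- The arithmetic of the degree equation. -/
theorem degree_cases : ∀ D ∈ smallDivs, ∀ ε ∈ ([1, -1] : List ℤ), ∀ d ∈ smallDivs, ∀ d' ∈ smallDivs,
    ∀ c ∈ ([1, -1] : List ℤ), ∀ c' ∈ ([1, -1] : List ℤ),
    ((13 : ℤ) ∣ (D : ℤ) - 3 * ε ∧ 1 + d ^ 2 + d' ^ 2 + 4 * D ^ 2 ≤ 5616 ∧ (13 : ℤ) ∣ (d : ℤ) + c ∧
      (13 : ℤ) ∣ (d' : ℤ) + c' ∧ (d : ℤ) * c + d' * c' + ε * D = 1) →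
    D = 16 ∧ ε = 1 ∧
      (d = 27 ∧ c = -1 ∧ d' = 12 ∧ c' = 1 ∨ d = 12 ∧ c = 1 ∧ d' = 27 ∧ c' = -1) := by
  decide +kernel

variable [IsSimpleGroup G]

/-- The element of order thirteen. -/
theorem exists_thirteen (hG : ¬ IsMulCommutative G) (hcard : Nat.card G = 5616) :
    ∃ z : G, orderOf z = 13 ∧ Subgroup.centralizer ({z} : Set G) = Subgroup.zpowers z ∧
      (H30.conjExps 13 z).card = 3 := by
  have : Fact (Nat.Prime 13) := ⟨by norm_num⟩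
  obtain ⟨hP, n, e, K, hmem, -, -, -, -, -, -, -, -, hC, hN, -, -⟩ :=
    Range6232.prime_options hG 13 432 (by norm_num) (by rw [hcard]) (by norm_num)
      (default : Sylow 13 G)
  have hopts : Range6232.primeOpts 13 432 = [(144, 3, 1)] := by decide +kernel
  simp only [hopts, List.mem_singleton, Prod.mk.injEq] at hmem
  obtain ⟨-, rfl, rfl⟩ := hmem
  exact H30.exists_self_centralizing 13 3 _ hP (by rw [hC]) (by rw [hN])

theorem exists_chars (hG : ¬ IsMulCommutative G) (hcard : Nat.card G = 5616) :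
    ∃ z : G, Nonempty (Chars z) := by
  classical
  have : Fact (Nat.Prime 13) := ⟨by norm_num⟩
  obtain ⟨z, hz, hC, he⟩ := exists_thirteen hG hcard
  obtain ⟨d, c, K, ε, C, D, hε, hK, h1K, hd1, hc1, hKv, hq, hsum, hcong, hd, hsq, hdv, ⟨hvR, hvK⟩,
    hu⟩ := H30.degree_equation hG hz hC 3 4 he rfl (by norm_num)
  set o := H26.oneIrr G
  set R := (univ.erase o) \ K with hR
  have hKsub : K ⊆ univ.erase o := fun k hk => mem_erase.mpr ⟨fun e => h1K (e ▸ hk), mem_univ k⟩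
  have split : ∀ {M : Type} [AddCommMonoid M] (f : Cfsg.IrrCharacter G → M),
      ∑ χ, f χ = f o + (∑ χ ∈ R, f χ + ∑ χ ∈ K, f χ) := by
    intro M _ f
    rw [Finset.sum_sdiff hKsub, Finset.add_sum_erase _ _ (mem_univ o)]
  rw [split, hc1, Finset.sum_congr rfl (fun k hk => by rw [(hKv k hk).2] : ∀ k ∈ K, c k ^ 2 = C ^ 2),
    Finset.sum_const, hK, nsmul_eq_mul] at hq
  rw [split, hc1, hd1,
    Finset.sum_congr rfl (fun k hk => by rw [(hKv k hk).1, (hKv k hk).2] :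
      ∀ k ∈ K, (d k : ℤ) * c k = (D : ℤ) * C),
    Finset.sum_const, hK, nsmul_eq_mul] at hsum
  push_cast at hq hsum
  have hnn : 0 ≤ ∑ χ ∈ R, c χ ^ 2 := Finset.sum_nonneg fun χ _ => sq_nonneg _
  have hC0 : C = 0 := by
    by_contra h0
    have h1 : 1 ≤ C ^ 2 := by rcases lt_or_gt_of_ne h0 with h | h <;> nlinarith
    have hR0 : ∑ χ ∈ R, c χ ^ 2 = 0 ∧ C = -ε := by
      rcases hε with rfl | rfl
      · have h2 : C = -1 := by nlinarith [sq_nonneg (C + 1)]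
        subst h2; norm_num at hq ⊢; omega
      · have h2 : C = 1 := by nlinarith [sq_nonneg (C - 1)]
        subst h2; norm_num at hq ⊢; omega
    obtain ⟨hR0, rfl⟩ := hR0
    have hz0 : ∀ χ ∈ R, c χ = 0 := fun χ hχ =>
      pow_eq_zero_iff two_ne_zero |>.mp ((Finset.sum_eq_zero_iff_of_nonneg
        fun y _ => sq_nonneg (c y)).mp hR0 χ hχ)
    rw [Finset.sum_eq_zero (s := R) fun χ hχ => by rw [hz0 χ hχ, mul_zero]] at hsum
    rcases hε with rfl | rfl <;> omega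
  subst hC0
  have hq2 : ∑ χ ∈ R, c χ ^ 2 = 2 := by norm_num at hq; omega
  obtain ⟨hcard2, hval⟩ := H30.sqnorm_two (fun χ => if χ ∈ R then c χ else 0)
    (by
      rw [← hq2, ← Finset.sum_subset (subset_univ R) (fun χ _ h => by simp [h])]
      exact Finset.sum_congr rfl fun χ h => by simp [h])
  obtain ⟨χ₁, χ₂, hne, hS⟩ := Finset.card_eq_two.mp hcard2
  have hmem : ∀ χ, (χ ∈ R ∧ c χ ≠ 0) ↔ (χ = χ₁ ∨ χ = χ₂) := by
    intro χ
    have := congrArg (fun s => χ ∈ s) hS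
    simp only [mem_filter, mem_univ, true_and, mem_insert, mem_singleton, eq_iff_iff] at this
    rw [← this]
    by_cases h : χ ∈ R
    · simp only [h, if_true, true_and]
    · simp only [h, if_false, false_and, ne_eq, not_true_eq_false]
  obtain ⟨h1R, h1c⟩ := (hmem χ₁).mpr (Or.inl rfl)
  obtain ⟨h2R, h2c⟩ := (hmem χ₂).mpr (Or.inr rfl)
  have hsgn : ∀ χ, χ ∈ R → c χ ≠ 0 → c χ = 1 ∨ c χ = -1 := fun χ hχ hc => by
    have := hval χ
    simp only [if_pos hχ] at this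
    exact this hc
  have hzero : ∀ χ ∈ R, χ ≠ χ₁ → χ ≠ χ₂ → c χ = 0 := fun χ hχ a b => by
    by_contra h
    exact ((hmem χ).mp ⟨hχ, h⟩).elim a b
  have hsumR : ∑ χ ∈ R, (d χ : ℤ) * c χ = d χ₁ * c χ₁ + d χ₂ * c χ₂ :=
    Finset.sum_eq_add_of_mem χ₁ χ₂ h1R h2R hne fun χ hχ h => by
      rw [hzero χ hχ h.1 h.2, mul_zero]
  rw [hsumR] at hsum
  have heq : (d χ₁ : ℤ) * c χ₁ + d χ₂ * c χ₂ + ε * D = 1 := by linarith
  obtain ⟨k0, hk0⟩ := Finset.card_pos.mp (show 0 < K.card by omega)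
  have hk0o : k0 ≠ o := fun e => h1K (e ▸ hk0)
  have hge2 : ∀ χ, χ ≠ o → 2 ≤ d χ := fun χ hχ => by
    obtain ⟨a, -, b⟩ := hd χ
    by_contra h
    exact hχ (b (by omega))
  obtain ⟨h1o, h1K'⟩ := Finset.mem_sdiff.mp h1R
  obtain ⟨h2o, h2K'⟩ := Finset.mem_sdiff.mp h2R
  have hbound : 1 + d χ₁ ^ 2 + d χ₂ ^ 2 + 4 * D ^ 2 ≤ 5616 := by
    rw [← hcard, ← hsq, split, hd1,
      Finset.sum_congr rfl (fun k hk => by rw [(hKv k hk).1] : ∀ k ∈ K, d k ^ 2 = D ^ 2),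
      Finset.sum_const, hK, smul_eq_mul]
    have hpair : ∑ χ ∈ ({χ₁, χ₂} : Finset _), d χ ^ 2 ≤ ∑ χ ∈ R, d χ ^ 2 :=
      Finset.sum_le_sum_of_subset (Finset.insert_subset_iff.mpr
        ⟨h1R, Finset.singleton_subset_iff.mpr h2R⟩)
    rw [Finset.sum_pair hne] at hpair
    omega
  have hDd : D ∣ 5616 ∧ 2 ≤ D := by
    have := (hd k0).2.1
    have h2 := hge2 k0 hk0o
    rw [(hKv k0 hk0).1] at this h2
    exact ⟨hcard ▸ this, h2⟩
  have hlt : ∀ n : ℕ, n ^ 2 ≤ 5616 → n < 75 := fun n hn => by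
    by_contra h
    have : 75 ^ 2 ≤ n ^ 2 := Nat.pow_le_pow_left (by omega) 2
    omega
  have hDε : (13 : ℤ) ∣ (D : ℤ) - 3 * ε := by
    have := (hcong k0).1 hk0
    rw [(hKv k0 hk0).1, (hKv k0 hk0).2] at this
    simpa using this
  have hcl1 : c χ₁ ∈ ([1, -1] : List ℤ) := by
    rcases hsgn χ₁ h1R h1c with h | h <;> simp [h]
  have hcl2 : c χ₂ ∈ ([1, -1] : List ℤ) := by
    rcases hsgn χ₂ h2R h2c with h | h <;> simp [h]
  obtain ⟨hD16, rfl, hsol⟩ := degree_cases D (mem_smallDivs D (hlt _ (by omega)) hDd.1 hDd.2) ε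
    (by rcases hε with h | h <;> simp [h]) (d χ₁)
    (mem_smallDivs _ (hlt _ (by omega)) (hcard ▸ (hd χ₁).2.1) (hge2 χ₁ (ne_of_mem_erase h1o)))
    (d χ₂) (mem_smallDivs _ (hlt _ (by omega)) (hcard ▸ (hd χ₂).2.1) (hge2 χ₂ (ne_of_mem_erase h2o)))
    (c χ₁) hcl1 (c χ₂) hcl2
    ⟨hDε, hbound, (hcong χ₁).2 h1K', (hcong χ₂).2 h2K', heq⟩
  obtain ⟨a, b, haR', hbR', hab, hda, hca, hdb, hcb, hzero'⟩ :
      ∃ a b, a ∈ R ∧ b ∈ R ∧ a ≠ b ∧ d a = 27 ∧ c a = -1 ∧ d b = 12 ∧ c b = 1 ∧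
        ∀ χ ∈ R, χ ≠ a → χ ≠ b → c χ = 0 := by
    rcases hsol with ⟨e1, e2, e3, e4⟩ | ⟨e1, e2, e3, e4⟩
    · exact ⟨χ₁, χ₂, h1R, h2R, hne, e1, e2, e3, e4, hzero⟩
    · exact ⟨χ₂, χ₁, h2R, h1R, hne.symm, e3, e4, e1, e2, fun χ hχ u v => hzero χ hχ v u⟩
  obtain ⟨hao, haK⟩ := Finset.mem_sdiff.mp haR'
  obtain ⟨hbo, hbK⟩ := Finset.mem_sdiff.mp hbR'
  have hao' : a ≠ o := ne_of_mem_erase hao
  have hbo' : b ≠ o := ne_of_mem_erase hbo
  have hreal : ∀ χ, χ ∈ R → c χ ≠ 0 → d χ ≠ D →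
      (∀ ψ ∈ R, d ψ = d χ → c ψ ≠ 0 → ψ = χ) → ∀ g, (χ.1 g).im = 0 := by
    intro χ hχ hcχ hdD huniq
    rw [← H26.conjIrr_eq_self_iff]
    set ψ := H26.conjIrr χ
    have hψd : d ψ = d χ := by
      have := hdv ψ
      rw [H26.conjIrr_val, hdv χ, map_natCast] at this
      exact_mod_cast this.symm
    have hψK : ψ ∉ K := fun h => hdD (hψd ▸ (hKv ψ h).1)
    have hψo : ψ ≠ o := fun h => by
      have h2 := hge2 χ (ne_of_mem_erase (Finset.mem_sdiff.mp hχ).1)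
      rw [← hψd, h, hd1] at h2
      omega
    have hψR : ψ ∈ R := Finset.mem_sdiff.mpr ⟨mem_erase.mpr ⟨hψo, mem_univ ψ⟩, hψK⟩
    have hψc : c ψ = c χ := by
      have := hvR ψ hψK
      rw [H26.conjIrr_val, hvR χ (Finset.mem_sdiff.mp hχ).2, map_neg, map_intCast] at this
      exact_mod_cast (neg_injective this).symm
    exact huniq ψ hψR hψd (hψc ▸ hcχ)
  refine ⟨z, ⟨⟨a, b, K, hz, hC, ?_, hK, h1K, haK, hbK, hab, hao', hbo', by rw [hdv, hda],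
    by rw [hdv, hdb], fun k hk => by rw [hdv, (hKv k hk).1, hD16], ?_, ?_, ?_, ?_, ?_, ?_, ?_⟩⟩⟩
  · rw [H30.card_normalizer_zpowers hz hC, he]
  · refine hreal a haR' (by omega) (by omega) fun ψ hψ hdψ hcψ => ?_
    by_contra hne'
    rcases eq_or_ne ψ b with rfl | hb
    · omega
    · exact hcψ (hzero' ψ hψ hne' hb)
  · refine hreal b hbR' (by omega) (by omega) fun ψ hψ hdψ hcψ => ?_
    by_contra hne'
    rcases eq_or_ne ψ a with rfl | hb
    · omega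
    · exact hcψ (hzero' ψ hψ hb hne')
  · intro u hu1 hu13 k hk
    obtain ⟨θ, hθ, hor⟩ := hu u fun i h => by
      obtain ⟨g, hg⟩ := isConj_iff.mp h
      have h1 : orderOf (z ^ i) = orderOf u := by
        rw [← hg]
        exact orderOf_injective (MulAut.conj g).toMonoidHom (MulAut.conj g).injective u
      have h2 : orderOf (z ^ i) ∣ 13 := hz ▸ orderOf_pow_dvd i
      rw [h1] at h2
      exact ((Nat.dvd_prime (by norm_num)).mp h2).elim hu1 hu13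
    rw [split, Finset.sum_eq_add_of_mem a b haR' hbR' hab
        (fun χ hχ h => by rw [hzero' χ hχ h.1 h.2, Int.cast_zero, mul_zero]),
      Finset.sum_congr rfl (fun k hk => by rw [(hKv k hk).2, Int.cast_zero, mul_zero] :
        ∀ k ∈ K, k.1 u * (c k : ℂ) = 0),
      Finset.sum_const_zero, hca, hcb, hc1] at hor
    simp only [o, H26.oneIrr_val] at hor
    rw [hθ k hk]
    push_cast at hor
    linear_combination hor
  · rw [hvR a haK, hca]; norm_num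
  · rw [hvR b hbK, hcb]; norm_num
  · rw [hvK]; norm_num
  · intro χ hχo hχa hχb hχK
    rw [hvR χ hχK, hzero' χ (Finset.mem_sdiff.mpr ⟨mem_erase.mpr ⟨hχo, mem_univ χ⟩, hχK⟩) hχa hχb]
    norm_num

end Cfsg.Agent.H28.L33
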